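import Cfsg.Agent.Lib.Helper80.SubF5

set_option autoImplicit false
set_option linter.unusedSectionVars false

/-!
Odd-dimensional orthogonal groups: the local balance row.
-/

namespace Cfsg.Agent.Lib.Helper80.SubF

open Matrix QuadraticMap Module Cfsg.Agent.Lib.Helper13.OOut Cfsg.Agent.Lib.Helper43.PA
  Cfsg.Agent.Lib.Helper43.PO Cfsg.Agent.Lib.Helper44 Cfsg.Agent.Lib.Helper80.LocBal

universe u

set_option maxHeartbeats 2000000 in
theorem row_odd {F : Type u} [Field F] [Fintype F] (hodd : Odd (Fintype.card F)) {m : ℕ}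
    (hm : 3 ≤ m) (A : Subgroup (MulAut (Cfsg.POmega F ⇑(oddQF m F))))
    (hinn : ∀ k : Cfsg.POmega F ⇑(oddQF m F), MulAut.conj k ∈ A) {p : ℕ} [hp : Fact p.Prime]
    (x : MulAut (Cfsg.POmega F ⇑(oddQF m F))) (hord : orderOf x = p)
    (hnot : ¬ Cfsg.IsSimilarityInducedAutPOmega ⇑(oddQF m F) x) :
    Cfsg.pPrimeCore p ↥(A ⊓ Subgroup.centralizer {x}) ≠ ⊥ ↔
      (Cfsg.IsFieldAutClassPOmega ⇑(oddQF m F) x ∧ Nat.Coprime p (Nat.card
        ↥(MonoidHom.eqLocus x.toMonoidHom (MonoidHom.id (Cfsg.POmega F ⇑(oddQF m F)))))) := by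
  have h2 : (2 : F) ≠ 0 := two_ne_zero_of_odd_card hodd
  have hQ := oddQF_nondeg m F h2
  have hn : 5 ≤ Fintype.card (Unit ⊕ (Fin m ⊕ Fin m)) := by simp; omega
  have htop := Cfsg.Agent.Lib.Helper45.OAut.gamma_top_odd hodd hm
  rw [← oddQF_coe] at htop
  obtain ⟨y, rfl⟩ := Th_surjective (oddQF m F) hQ hn htop x
  obtain ⟨σ, hσ⟩ : ∃ σ, σ = (y : SG F (Unit ⊕ (Fin m ⊕ Fin m))).right := ⟨_, rfl⟩
  have hσ1 : σ ≠ 1 := by
    intro h1
    apply hnot
    have hk : y ∈ (lam ⇑(oddQF m F)).ker := by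
      rw [MonoidHom.mem_ker, lam_apply, ← hσ, h1]
    rw [ker_lam] at hk
    obtain ⟨g, rfl⟩ := hk
    exact ⟨g.1, g.2, (isInduced_iff' _ (inlG _ g) _).2 rfl⟩
  have hk : y * (fG ⇑(oddQF m F) σ (inv_odd m σ))⁻¹ ∈ (lam ⇑(oddQF m F)).ker := by
    rw [MonoidHom.mem_ker, map_mul, map_inv, lam_apply, ← hσ]
    exact mul_inv_cancel σ
  rw [ker_lam] at hk
  obtain ⟨g, hg⟩ := hk
  have hy : y = inlG _ g * fG _ σ (inv_odd m σ) := by rw [hg]; group
  have hx : Th ⇑(oddQF m F) y = conjPOmega ⇑(oddQF m F) g * phi m σ := by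
    rw [hy, map_mul, ← Th_inlG]; rfl
  have hpow : (Th ⇑(oddQF m F) y) ^ p = 1 := hord ▸ pow_orderOf_eq_one _
  have hoσ : orderOf σ = p := by
    have h1 : σ ^ p = 1 := by
      have h3 := hpow
      rw [← map_pow, Th_eq_one_iff _ hQ hn] at h3
      have h4 := h3.1
      rw [Subgroup.coe_pow] at h4
      have h5 : ∀ (z : SG F (Unit ⊕ (Fin m ⊕ Fin m))) (n : ℕ), (z ^ n).right = z.right ^ n :=
        fun z n => map_pow (SemidirectProduct.rightHom) z n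
      rw [h5, ← hσ] at h4
      exact h4
    rcases (Nat.dvd_prime hp.out).1 (orderOf_dvd_of_pow_eq_one h1) with h | h
    · exact absurd (orderOf_eq_one_iff.1 h) hσ1
    · exact h
  obtain ⟨k, hk⟩ := field_coset_odd h2 hm σ g (by
    rw [hoσ]
    have := hpow
    rw [hx] at this
    exact this)
  have hx' : Th ⇑(oddQF m F) y = conjPOmega ⇑(oddQF m F) k * phi m σ *
      (conjPOmega ⇑(oddQF m F) k)⁻¹ := by
    exact hx.trans hk
  have hfield : Cfsg.IsFieldAutClassPOmega ⇑(oddQF m F) (Th ⇑(oddQF m F) y) := by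
    refine ⟨(conjPOmega ⇑(oddQF m F) k)⁻¹, phi m σ, σ, hσ1,
      (isFieldAut_iff _ σ (inv_odd m σ) _).2 rfl, ?_⟩
    have hgrp : ∀ α φ : MulAut (Cfsg.POmega F ⇑(oddQF m F)), α⁻¹ * (α * φ * α⁻¹) * α⁻¹⁻¹ = φ := by
      intro α φ; group
    exact (congrArg (fun z => (conjPOmega ⇑(oddQF m F) k)⁻¹ * z * (conjPOmega ⇑(oddQF m F) k)⁻¹⁻¹)
      hx').trans (hgrp _ _)
  let _ : Fintype ↥(fixK σ) := Fintype.ofFinite _
  have hfinK : Finite (Cfsg.POmega F ⇑(oddQF m F)) := inferInstance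
  have hphi : phi m σ ^ p = 1 := by
    rw [← hoσ, ← orderOf_Th_fG (oddQF m F) hQ hn σ (inv_odd m σ)]
    exact pow_orderOf_eq_one _
  have key := locbal_conj (conj_injective (oddQF m F) hQ hn) A hinn (Th ⇑(oddQF m F) y) (phi m σ)
    (conjPOmega ⇑(oddQF m F) k) hx' hphi (fE (isRat_odd (fixK σ).subtype m)).range
    (by
      rintro _ ⟨s, rfl⟩
      exact phi_fE (fixK_iff' σ) s)
    (simple_E h2 hm) (perf_E h2 hm) (comm_Fx_le (fixK_iff' σ) (center_odd m h2 hm))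
    (dvd_card_E (fixK_iff' σ) h2 hm) (cent_E (fixK_iff' σ) hodd hm)
  constructor
  · intro h
    exact ⟨hfield, key.1 h⟩
  · rintro ⟨-, h⟩
    exact key.2 h

end Cfsg.Agent.Lib.Helper80.SubF
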