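import Cfsg.Agent.Lib.Helper80.SubF2

set_option autoImplicit false
set_option linter.unusedSectionVars false

/-!
Odd-dimensional form: a matrix fixing all rational singular points is scalar; Galois theory.
-/

namespace Cfsg.Agent.Lib.Helper80.SubF

open Matrix QuadraticMap Module Cfsg.Agent.Lib.Helper13.OOut Cfsg.Agent.Lib.Helper43.PA
  Cfsg.Agent.Lib.Helper43.PO Cfsg.Agent.Lib.Helper44

universe u v

theorem mem_zpowers_of_fix {F : Type u} [Field F] [Finite F] (σ τ : F ≃+* F)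
    (h : ∀ x, σ x = x → τ x = x) : τ ∈ Subgroup.zpowers σ := by
  have hfin : Finite (F ≃+* F) := Finite.of_injective (fun e => (e : F → F)) DFunLike.coe_injective
  let τ' : F →ₐ[FixedPoints.subfield (Subgroup.zpowers σ) F] F :=
    { (τ : F →+* F) with
      commutes' := fun r => h r.1 (mem_fixK.1 r.2) }
  obtain ⟨g, hg⟩ := (FixedPoints.toAlgHom_bijective (Subgroup.zpowers σ) F).2 τ'
  have : τ = g.1 := by
    ext x
    have := congrArg (fun f : F →ₐ[FixedPoints.subfield (Subgroup.zpowers σ) F] F => f x) hg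
    exact this.symm
  rw [this]
  exact g.2

variable {F : Type u} [Field F] {F₀ : Type v} [Field F₀] {i₀ : F₀ →+* F} {m : ℕ}

lemma odd_single_inr (j : Fin m ⊕ Fin m) :
    oddQF m F₀ (Pi.single (Sum.inr j) 1) = 0 := by
  rw [oddQF_apply]
  rcases j with j | j <;> simp

lemma odd_sing3 (i : Fin m) : oddQF m F₀ (Pi.single (Sum.inl ()) 1 + Pi.single (Sum.inr (Sum.inl i)) 1
    - Pi.single (Sum.inr (Sum.inr i)) 1) = 0 := by
  rw [oddQF_apply]
  simp [Pi.single_apply]

theorem left_scalar_odd (hm : 2 ≤ m)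
    (g : Matrix (Unit ⊕ (Fin m ⊕ Fin m)) (Unit ⊕ (Fin m ⊕ Fin m)) F)
    (hg : ∀ u : Unit ⊕ (Fin m ⊕ Fin m) → F₀, u ≠ 0 → oddQF m F₀ u = 0 →
      ∃ c : F, g *ᵥ up i₀ u = c • up i₀ u) : ∃ a : F, g = a • 1 := by
  have hne : ∀ j : Unit ⊕ (Fin m ⊕ Fin m), (Pi.single j 1 : Unit ⊕ (Fin m ⊕ Fin m) → F₀) ≠ 0 := by
    intro j h
    have := congrFun h j
    simp at this
  have ha : ∀ j : Fin m ⊕ Fin m, ∃ c : F, g *ᵥ Pi.single (Sum.inr j) 1 = c • Pi.single (Sum.inr j) 1 := by
    intro j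
    have := hg _ (hne (Sum.inr j)) (odd_single_inr j)
    rwa [up_single] at this
  choose a ha using ha
  have hA : ∀ j k : Fin m ⊕ Fin m, j ≠ k →
      polar (oddQF m F₀) (Pi.single (Sum.inr j) 1) (Pi.single (Sum.inr k) 1) = 0 → a j = a k := by
    intro j k hjk hp
    have hs : oddQF m F₀ (Pi.single (Sum.inr j) 1 + Pi.single (Sum.inr k) 1) = 0 := by
      rw [QuadraticMap.map_add (⇑(oddQF m F₀)), odd_single_inr, odd_single_inr, hp]; simp
    have hs0 : (Pi.single (Sum.inr j) 1 + Pi.single (Sum.inr k) 1 :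
        Unit ⊕ (Fin m ⊕ Fin m) → F₀) ≠ 0 := by
      intro h
      have := congrFun h (Sum.inr j)
      simp [Pi.single_apply, hjk] at this
    obtain ⟨μ, hμ⟩ := hg _ hs0 hs
    rw [up_add, up_single, up_single, mulVec_add, ha, ha] at hμ
    have h1 := congrFun hμ (Sum.inr j)
    have h2 := congrFun hμ (Sum.inr k)
    simp [Pi.single_apply, hjk, hjk.symm] at h1 h2
    rw [h1, h2]
  let i0 : Fin m := ⟨0, by omega⟩
  let i1 : Fin m := ⟨1, by omega⟩
  have h01 : i0 ≠ i1 := by
    intro h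
    have := congrArg Fin.val h
    simp [i0, i1] at this
  have hall : ∀ j, a j = a (Sum.inl i0) := by
    have hll : ∀ i k : Fin m, i ≠ k → a (Sum.inl i) = a (Sum.inl k) := by
      intro i k hik
      apply hA _ _ (by simpa using hik)
      rw [oddQF_polar_single_inl]; simp
    have hlr : ∀ i k : Fin m, i ≠ k → a (Sum.inl i) = a (Sum.inr k) := by
      intro i k hik
      apply hA _ _ (by simp)
      rw [oddQF_polar_single_inl]; simp [Pi.single_apply, hik]
    intro j
    rcases j with i | k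
    · by_cases hi : i = i0
      · rw [hi]
      · exact hll i i0 hi
    · by_cases hk : k = i0
      · rw [hk, ← hlr i1 i0 h01.symm]
        exact hll i1 i0 h01.symm
      · exact (hlr i0 k (Ne.symm hk)).symm
  have hd : ∀ i : Fin m, ∃ μ : F, g *ᵥ Pi.single (Sum.inl ()) 1 =
      μ • (Pi.single (Sum.inl ()) 1 + Pi.single (Sum.inr (Sum.inl i)) 1
        - Pi.single (Sum.inr (Sum.inr i)) 1) - a (Sum.inl i0) • Pi.single (Sum.inr (Sum.inl i)) 1
        + a (Sum.inl i0) • Pi.single (Sum.inr (Sum.inr i)) 1 := by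
    intro i
    have hs0 : (Pi.single (Sum.inl ()) 1 + Pi.single (Sum.inr (Sum.inl i)) 1
        - Pi.single (Sum.inr (Sum.inr i)) 1 : Unit ⊕ (Fin m ⊕ Fin m) → F₀) ≠ 0 := by
      intro h
      have := congrFun h (Sum.inl ())
      simp [Pi.single_apply] at this
    obtain ⟨μ, hμ⟩ := hg _ hs0 (odd_sing3 i)
    refine ⟨μ, ?_⟩
    rw [up_sub, up_add, up_single, up_single, up_single, mulVec_sub, mulVec_add, ha, ha, hall,
      hall (Sum.inr i)] at hμ
    rw [← hμ]
    abel
  obtain ⟨μ, hμ⟩ := hd i0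
  obtain ⟨μ', hμ'⟩ := hd i1
  have hμa : μ = a (Sum.inl i0) := by
    have h1 := congrFun hμ (Sum.inr (Sum.inl i0))
    have h2 := congrFun hμ' (Sum.inr (Sum.inl i0))
    rw [h1] at h2
    simp [Pi.single_apply, h01] at h2
    linear_combination h2
  refine ⟨a (Sum.inl i0), ?_⟩
  apply matrix_ext_single
  intro j
  rw [smul_mulVec, one_mulVec]
  rcases j with _ | j
  · rw [hμ, hμa]
    module
  · rw [ha, hall]

end Cfsg.Agent.Lib.Helper80.SubF
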