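import Mathlib
import Cfsg.Agent.Lib.Helper80.Core
import Cfsg.Agent.Lib.Helper80.Inflation
import Cfsg.Agent.Lib.Helper76.Galois
import Cfsg.Agent.Lib.Helper76.Eigen

/-! Non-vanishing elements: if no irreducible character vanishes at `g` then
`k(G) ≤ |C_G(g)|`, with information on the case of equality. -/

set_option autoImplicit false

namespace Cfsg.Agent.Lib.Helper80

open Cfsg.Agent.Lib.Helper74 Cfsg.Agent.Lib.Helper76
open scoped ComplexConjugate

variable {G : Type*} [Group G] [Fintype G]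

theorem centralizer_pow_coprime (g : G) (k : ℕ) (hk : k.Coprime (Fintype.card G)) :
    Subgroup.centralizer ({g ^ k} : Set G) = Subgroup.centralizer ({g} : Set G) := by
  have hc : (Nat.card G).Coprime k := by
    rw [Nat.card_eq_fintype_card]
    exact hk.symm
  have h1 : (powCoprime hc).symm (g ^ k) = g := by
    rw [Equiv.symm_apply_eq]
    rfl
  rw [powCoprime_symm_apply] at h1
  ext x
  simp only [Subgroup.mem_centralizer_singleton_iff]
  constructor
  · intro h
    have h2 : Commute x (g ^ k) := h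
    have h3 := h2.zpow_right ((Nat.card G).gcdB k)
    rw [h1] at h3
    exact h3
  · intro h
    have h2 : Commute x g := h
    exact h2.pow_right k

/-- Second orthogonality in norm form. -/
theorem sum_irr_norm_sq (g : G) : ∑ χ : IrrCharacter G, ‖(χ : G → ℂ) g‖ ^ 2 =
    (Nat.card (Subgroup.centralizer ({g} : Set G)) : ℝ) := by
  have h := col_orth g g
  rw [if_pos (IsConj.refl g)] at h
  have h2 : ((∑ χ : IrrCharacter G, ‖(χ : G → ℂ) g‖ ^ 2 : ℝ) : ℂ) =
      (Nat.card (Subgroup.centralizer ({g} : Set G)) : ℂ) := by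
    rw [← h]
    push_cast
    apply Finset.sum_congr rfl
    intro χ _
    rw [Complex.mul_conj, Complex.normSq_eq_norm_sq]
    push_cast
    rfl
  exact_mod_cast h2

/-- Galois-averaged column: there are weights `a χ` summing to `|C_G(g)|`, with `a χ ≥ 1` when
`χ g ≠ 0`, `a χ ≥ 0` always and `a χ = χ(1)²` when `g ∈ ker χ`. -/
theorem exists_col_avg (g : G) :
    ∃ a : IrrCharacter G → ℝ,
      (∑ χ, a χ = (Nat.card (Subgroup.centralizer ({g} : Set G)) : ℝ)) ∧ (∀ χ, 0 ≤ a χ) ∧
      (∀ χ : IrrCharacter G, (χ : G → ℂ) g ≠ 0 → 1 ≤ a χ) ∧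
      (∀ χ : IrrCharacter G, (χ : G → ℂ) g = (χ : G → ℂ) 1 →
        a χ = (charDegree (χ : G → ℂ) : ℝ) ^ 2) := by
  obtain ⟨ι, _, hne, k, hk, H⟩ := galois_avg (Fintype.card G) Fintype.card_pos
  have hι : (0 : ℝ) < Fintype.card ι := by exact_mod_cast Fintype.card_pos
  refine ⟨fun χ => (Fintype.card ι : ℝ)⁻¹ * ∑ j, ‖(χ : G → ℂ) (g ^ k j)‖ ^ 2, ?_, ?_, ?_, ?_⟩
  · rw [← Finset.mul_sum, Finset.sum_comm]
    have : ∀ j, ∑ χ : IrrCharacter G, ‖(χ : G → ℂ) (g ^ k j)‖ ^ 2 =
        (Nat.card (Subgroup.centralizer ({g} : Set G)) : ℝ) := by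
      intro j
      rw [sum_irr_norm_sq, centralizer_pow_coprime g (k j) (hk j)]
    rw [Finset.sum_congr rfl (fun j _ => this j)]
    simp only [Finset.sum_const, Finset.card_univ, nsmul_eq_mul]
    field_simp
  · intro χ
    positivity
  · intro χ hg
    obtain ⟨χ, n, ρ, hρ, rfl⟩ := χ
    obtain ⟨μ, h1, h2⟩ := exists_char_eigenvalues ρ g (Fintype.card G) Fintype.card_pos
      (pow_card_eq_one)
    have h3 := (H _ μ h1 (by
      have := h2 1
      simp only [pow_one] at this
      rw [← this]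
      exact hg)).2.2
    have h4 : ∑ j, ‖ρ.character (g ^ k j)‖ ^ 2 = ∑ j, ‖∑ i, μ i ^ k j‖ ^ 2 := by
      apply Finset.sum_congr rfl
      intro j _
      rw [h2]
    beta_reduce
    rw [h4]
    rw [le_inv_mul_iff₀ hι, mul_one]
    exact h3
  · intro χ hg
    have hc := isCharacter_of_irr χ.2
    have : ∀ j, ‖(χ : G → ℂ) (g ^ k j)‖ ^ 2 = (charDegree (χ : G → ℂ) : ℝ) ^ 2 := by
      intro j
      have h1 : g ^ k j ∈ charKer (χ : G → ℂ) hc :=
        Subgroup.pow_mem _ ((mem_charKer hc g).2 hg) _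
      rw [(mem_charKer hc _).1 h1, char_one_eq_charDegree hc]
      simp
    beta_reduce
    rw [Finset.sum_congr rfl (fun j _ => this j)]
    simp only [Finset.sum_const, Finset.card_univ, nsmul_eq_mul]
    field_simp

/-- If no irreducible character vanishes at `g`, then `k(G) ≤ |C_G(g)|`. -/
theorem card_irr_le_of_nonvanishing (g : G) (hg : ∀ χ : IrrCharacter G, (χ : G → ℂ) g ≠ 0) :
    Nat.card (IrrCharacter G) ≤ Nat.card (Subgroup.centralizer ({g} : Set G)) := by
  obtain ⟨a, h1, -, h3, -⟩ := exists_col_avg g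
  have h4 : ∑ χ : IrrCharacter G, (1 : ℝ) ≤ ∑ χ, a χ :=
    Finset.sum_le_sum (fun χ _ => h3 χ (hg χ))
  rw [h1] at h4
  simp only [Finset.sum_const, Finset.card_univ, nsmul_eq_mul, mul_one] at h4
  rw [Nat.card_eq_fintype_card]
  exact_mod_cast h4

/-- In the case of equality, every irreducible character with `g` in its kernel is linear. -/
theorem charDegree_eq_one_of_nonvanishing (g : G) (hg : ∀ χ : IrrCharacter G, (χ : G → ℂ) g ≠ 0)
    (heq : Nat.card (IrrCharacter G) = Nat.card (Subgroup.centralizer ({g} : Set G)))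
    (χ : IrrCharacter G) (hχ : (χ : G → ℂ) g = (χ : G → ℂ) 1) : charDegree (χ : G → ℂ) = 1 := by
  obtain ⟨a, h1, -, h3, h5⟩ := exists_col_avg g
  have h6 : ∑ χ : IrrCharacter G, (a χ - 1) = 0 := by
    rw [Finset.sum_sub_distrib, h1, ← heq, Nat.card_eq_fintype_card]
    simp
  have h7 := (Finset.sum_eq_zero_iff_of_nonneg
    (fun χ _ => sub_nonneg.2 (h3 χ (hg χ)))).1 h6 χ (Finset.mem_univ _)
  rw [h5 χ hχ] at h7
  have h8 : ((charDegree (χ : G → ℂ) ^ 2 : ℕ) : ℝ) = 1 := by
    push_cast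
    linarith
  have h9 : charDegree (χ : G → ℂ) ^ 2 = 1 := by exact_mod_cast h8
  exact (Nat.pow_eq_one.1 h9).resolve_right (by norm_num)

end Cfsg.Agent.Lib.Helper80
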