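import Mathlib
import Cfsg.Agent.Lib.Helper80.CoreDvd

/-! Codegrees `[G : ker χ] / χ(1)`. -/

set_option autoImplicit false

namespace Cfsg.Agent.Lib.Helper80

open Cfsg.Agent.Lib.Helper74
open scoped ComplexConjugate

section
variable {G : Type*} [Group G] [Finite G]

/-- The codegree of `χ`, in the shape used by the statements. -/
noncomputable def cod (χ : G → ℂ) : ℕ :=
  Nat.card G / (Nat.card {g : G // χ g = χ 1} * charDegree χ)

theorem cod_mul (χ : IrrCharacter G) :
    cod (χ : G → ℂ) * (Nat.card {g : G // (χ : G → ℂ) g = (χ : G → ℂ) 1} *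
      charDegree (χ : G → ℂ)) = Nat.card G :=
  Nat.div_mul_cancel (card_ker_mul_charDegree_dvd χ)

theorem cod_dvd_card (χ : IrrCharacter G) : cod (χ : G → ℂ) ∣ Nat.card G :=
  Dvd.intro _ (cod_mul χ)

/-- `cod χ * χ(1) = [G : ker χ]`. -/
theorem cod_mul_charDegree (χ : IrrCharacter G) :
    cod (χ : G → ℂ) * charDegree (χ : G → ℂ) = (charKer _ (isCharacter_of_irr χ.2)).index := by
  have h := cod_mul χ
  have hc := isCharacter_of_irr χ.2
  rw [card_charKer hc, ← Subgroup.card_mul_index (charKer _ hc)] at h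
  have hpos : 0 < Nat.card (charKer _ hc) := Nat.card_pos
  apply Nat.eq_of_mul_eq_mul_left hpos
  rw [← h]; ring

end

end Cfsg.Agent.Lib.Helper80
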