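import Mathlib
import Cfsg.Agent.Lib.Helper80.Inflation
import Cfsg.Agent.Lib.Helper74.CharBasic
import Cfsg.Agent.Lib.Helper15.Clifford2

/-! Basic facts on fully ramified characters. -/

set_option autoImplicit false

namespace Cfsg.Agent.Lib.Helper80

open Cfsg.Agent.Lib.Helper74
open scoped ComplexConjugate

variable {H : Type*} [Group H] [Fintype H] (Z : Subgroup H) [hZ : Z.Normal]

omit hZ in
/-- A character which is fully ramified over `Z` vanishes off `Z`. -/
theorem fr_vanish (χ : IrrCharacter H) (θ : IrrCharacter Z) (e : ℕ) (he : e ^ 2 = Z.index)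
    (h : ∀ z : Z, (χ : H → ℂ) z = (e : ℂ) * (θ : Z → ℂ) z) :
    ∀ g : H, g ∉ Z → (χ : H → ℂ) g = 0 := by
  classical
  have := Fintype.ofFinite Z
  rw [Cfsg.Agent.Lib.Helper15.vanishes_off_iff Z, classInner_irr_self]
  have h1 : (fun n : Z => (χ : H → ℂ) n) = (e : ℂ) • (θ : Z → ℂ) := by
    funext z
    rw [h z]
    rfl
  rw [h1, classInner_smul_left, classInner_smul_right, classInner_irr_self, ← Z.card_mul_index, ← he]
  push_cast
  simp
  ring

/-- `θ` is invariant. -/
theorem fr_invariant (χ : IrrCharacter H) (θ : IrrCharacter Z) (e : ℕ) (he : e ^ 2 = Z.index)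
    (h : ∀ z : Z, (χ : H → ℂ) z = (e : ℂ) * (θ : Z → ℂ) z) (g : H) (z : Z) :
    (θ : Z → ℂ) ⟨g * z * g⁻¹, hZ.conj_mem z z.2 g⟩ = (θ : Z → ℂ) z := by
  have he0 : (e : ℂ) ≠ 0 := by
    have : e ≠ 0 := by
      rintro rfl
      exact Z.index_ne_zero_of_finite (by rw [← he]; simp)
    exact_mod_cast this
  have h1 := h ⟨g * z * g⁻¹, hZ.conj_mem z z.2 g⟩
  have h2 := h z
  have h3 : (χ : H → ℂ) (g * z * g⁻¹) = (χ : H → ℂ) z :=
    isClassFunction_of_char (isCharacter_of_irr χ.2) z g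
  rw [← h3, h1] at h2
  exact mul_left_cancel₀ he0 h2

end Cfsg.Agent.Lib.Helper80
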