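import Mathlib
import Cfsg.Agent.Lib.Helper80.Gagola
import Cfsg.Agent.S0189

/-! Gagola characters: orders. -/

set_option autoImplicit false

namespace Cfsg.Agent.Lib.Helper80

open Cfsg.Agent.Lib.Helper74
open scoped ComplexConjugate

section
variable {G : Type*} [Group G] [Finite G] (χ : IrrCharacter G) {g₀ : G} (hg₀ : g₀ ≠ 1)
  (hsupp : ∀ x, (χ : G → ℂ) x ≠ 0 ↔ x = 1 ∨ IsConj g₀ x)

include hg₀ hsupp

theorem gagola_card_N (N : Subgroup G) (hN : ∀ g : G, g ∈ N ↔ (χ : G → ℂ) g ≠ 0) :
    Nat.card N = 1 + Nat.card {x : G // IsConj g₀ x} := by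
  classical
  have : Fintype G := Fintype.ofFinite G
  have h1 := gagola_sum hg₀ (fun x => if x ∈ N then (1 : ℂ) else 0)
    (fun x hx => by
      have h1 : x ∈ N := (hN x).2 ((hsupp x).2 (Or.inr hx))
      have h2 : g₀ ∈ N := (hN g₀).2 ((hsupp g₀).2 (Or.inr (IsConj.refl _)))
      simp [h1, h2])
    (fun x hx1 hx2 => by
      have : x ∉ N := fun h => by
        rcases (hsupp x).1 ((hN x).1 h) with h | h
        · exact hx1 h
        · exact hx2 h
      simp [this])
  have h2 : g₀ ∈ N := (hN g₀).2 ((hsupp g₀).2 (Or.inr (IsConj.refl _)))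
  simp only [N.one_mem, h2, if_true, mul_one] at h1
  rw [Finset.sum_boole] at h1
  have h3 : Nat.card N = (Finset.univ.filter (fun x : G => x ∈ N)).card := by
    rw [Nat.card_eq_fintype_card, Fintype.card_subtype]
  rw [h3]
  exact_mod_cast h1

theorem gagola_class_pos : 0 < Nat.card {x : G // IsConj g₀ x} :=
  Nat.card_pos_iff.2 ⟨⟨⟨g₀, IsConj.refl _⟩⟩, inferInstance⟩

theorem gagola_order (hG : 2 < Nat.card G) :
    Nat.card {x : G // IsConj g₀ x} * Nat.card G =
      (charDegree (χ : G → ℂ)) ^ 2 * (Nat.card {x : G // IsConj g₀ x} + 1) := by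
  classical
  have : Fintype G := Fintype.ofFinite G
  have hcχ := isCharacter_of_irr χ.2
  have h0 := classInner_irr_self χ
  unfold classInner at h0
  have hcard : (Nat.card G : ℂ) ≠ 0 := by exact_mod_cast Nat.card_pos.ne'
  rw [inv_mul_eq_iff_eq_mul₀ hcard, mul_one] at h0
  rw [gagola_sum hg₀ (fun x => (χ : G → ℂ) x * conj ((χ : G → ℂ) x))] at h0
  · have hv := gagola_val χ hg₀ hsupp hG
    rw [char_one_eq_charDegree hcχ] at hv h0
    have hv' := congrArg conj hv
    simp only [map_add, map_mul, Complex.conj_natCast, map_zero] at hv' h0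
    set k : ℂ := (Nat.card {x : G // IsConj g₀ x} : ℂ) with hk
    set v : ℂ := (χ : G → ℂ) g₀ with hvdef
    set d : ℂ := (charDegree (χ : G → ℂ) : ℂ) with hd
    have key : k * (Nat.card G : ℂ) = d ^ 2 * (k + 1) := by
      have e1 : k * v = -d := by linear_combination hv
      have e2 : k * conj v = -d := by linear_combination hv'
      have e3 : k * (k * (v * conj v)) = d ^ 2 := by
        calc k * (k * (v * conj v)) = (k * v) * (k * conj v) := by ring
          _ = d ^ 2 := by rw [e1, e2]; ring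
      rw [← h0]
      linear_combination e3
    rw [hk, hd] at key
    exact_mod_cast key
  · intro x hx
    rw [char_eq_of_isConj hcχ hx]
  · intro x hx1 hx2
    have : (χ : G → ℂ) x = 0 := by
      by_contra h
      rcases (hsupp x).1 h with h | h
      · exact hx1 h
      · exact hx2 h
    simp [this]

/-- The centralizer of `g₀` has order the full power of `p` dividing `|G|`. -/
theorem gagola_card_centralizer (hG : 2 < Nat.card G) (p : ℕ) [Fact p.Prime] (N : Subgroup G)
    (hN : ∀ g : G, g ∈ N ↔ (χ : G → ℂ) g ≠ 0) (hNp : IsPGroup p N) :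
    Nat.card (Subgroup.centralizer ({g₀} : Set G)) = p ^ (Nat.card G).factorization p := by
  have hp : p.Prime := Fact.out
  set k := Nat.card {x : G // IsConj g₀ x} with hk
  set C := Nat.card (Subgroup.centralizer ({g₀} : Set G)) with hC
  set d := charDegree (χ : G → ℂ) with hd
  have hkpos : 0 < k := gagola_class_pos χ hg₀ hsupp
  have hkC : k * C = Nat.card G := card_conj_mul_card_centralizer g₀
  have hord : k * Nat.card G = d ^ 2 * (k + 1) := gagola_order χ hg₀ hsupp hG
  have hNcard : Nat.card N = 1 + k := gagola_card_N χ hg₀ hsupp N hN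
  have hGpos : Nat.card G ≠ 0 := Nat.card_pos.ne'
  have hCpos : C ≠ 0 := Nat.card_pos.ne'
  have hpk : ¬ p ∣ k := by
    obtain ⟨a, ha⟩ := (IsPGroup.iff_card).1 hNp
    intro h
    have ha0 : a ≠ 0 := by
      rintro rfl
      rw [pow_zero] at ha
      omega
    have h1 : p ∣ 1 + k := by rw [← hNcard, ha]; exact dvd_pow_self p ha0
    have h2 : p ∣ 1 := (Nat.dvd_add_left h).1 h1
    exact hp.one_lt.ne' (Nat.dvd_one.1 h2)
  have hprime : ∀ {q : ℕ}, q.Prime → q ∣ C → q = p := by
    intro q hq hqC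
    by_contra hqp
    have : Fact q.Prime := ⟨hq⟩
    obtain ⟨Q⟩ : Nonempty (Sylow q G) := inferInstance
    have hvan : ∀ g : G, g ∈ Q → g ≠ 1 → (χ : G → ℂ) g = 0 := by
      intro g hgQ hg1
      by_contra hne
      have hgN : g ∈ N := (hN g).2 hne
      obtain ⟨a, ha⟩ := hNp ⟨g, hgN⟩
      obtain ⟨b, hb⟩ := Q.2 ⟨g, hgQ⟩
      have ha' : g ^ p ^ a = 1 := by simpa using congrArg Subtype.val ha
      have hb' : g ^ q ^ b = 1 := by simpa using congrArg Subtype.val hb
      have h1 : orderOf g ∣ p ^ a := orderOf_dvd_of_pow_eq_one ha'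
      have h2 : orderOf g ∣ q ^ b := orderOf_dvd_of_pow_eq_one hb'
      have hcop : Nat.Coprime (p ^ a) (q ^ b) :=
        Nat.Coprime.pow _ _ ((Nat.coprime_primes hp hq).2 (Ne.symm hqp))
      have h3 : orderOf g = 1 := Nat.eq_one_of_dvd_coprimes hcop h1 h2
      exact hg1 (orderOf_eq_one_iff.1 h3)
    obtain ⟨m, hm⟩ := Cfsg.Agent.S0189.result q Q (χ : G → ℂ) (isCharacter_of_irr χ.2) hvan
    rw [char_one_eq_charDegree (isCharacter_of_irr χ.2)] at hm
    have hdm : d = Nat.card Q * m := by exact_mod_cast hm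
    set e := (Nat.card G).factorization q with he
    have hQ : Nat.card Q = q ^ e := Q.card_eq_multiplicity
    have h1 : q ^ e * q ^ e ∣ k * Nat.card G := by
      rw [hord, hdm, hQ]
      exact Dvd.intro (m ^ 2 * (k + 1)) (by ring)
    have h2 : Nat.card G = q ^ e * (Nat.card G / q ^ e) := (Nat.ordProj_mul_ordCompl_eq_self _ q).symm
    have h3 : ¬ q ∣ Nat.card G / q ^ e := Nat.not_dvd_ordCompl hq hGpos
    have h4 : q ^ e ∣ k * (Nat.card G / q ^ e) := by
      have : q ^ e * q ^ e ∣ q ^ e * (k * (Nat.card G / q ^ e)) := by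
        have e1 : q ^ e * (k * (Nat.card G / q ^ e)) = k * (q ^ e * (Nat.card G / q ^ e)) := by ring
        rw [e1, ← h2]; exact h1
      exact Nat.dvd_of_mul_dvd_mul_left (pow_pos hq.pos e) this
    have h5 : q ^ e ∣ k :=
      Nat.Coprime.dvd_of_dvd_mul_right
        (Nat.Coprime.pow_left e ((Nat.Prime.coprime_iff_not_dvd hq).2 h3)) h4
    have h6 : q ^ (e + 1) ∣ Nat.card G := by
      rw [← hkC, pow_succ]
      exact Nat.mul_dvd_mul h5 hqC
    exact Nat.pow_succ_factorization_not_dvd hGpos hq h6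
  have hCpow := Nat.eq_prime_pow_of_unique_prime_dvd hCpos hprime
  set e := C.primeFactorsList.length with he
  rw [hCpow, ← hkC, hCpow, Nat.factorization_mul hkpos.ne' (pow_ne_zero _ hp.ne_zero)]
  simp [Nat.factorization_eq_zero_of_not_dvd hpk, hp.factorization_self]

end

end Cfsg.Agent.Lib.Helper80
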