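import Cfsg.Agent.Lib.Helper39.GL2Char.Trans

/-!
The induced matrix representation over an arbitrary commutative ring and its trace;
induction of real representations.
-/

set_option autoImplicit false

namespace Cfsg.Agent.Lib.Helper80

open Cfsg Cfsg.Agent.Lib.Helper15

section mat

variable {G : Type*} [Group G] (H : Subgroup G) {n : Type*} [Fintype n] [DecidableEq n]
  {R : Type*} [CommRing R] (X : H →* Matrix n n R)

open Classical in
/-- extension by zero of a matrix representation. -/
noncomputable def extMat (g : G) : Matrix n n R := if h : g ∈ H then X ⟨g, h⟩ else 0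

theorem extMat_mem {g : G} (h : g ∈ H) : extMat H X g = X ⟨g, h⟩ := dif_pos h

theorem extMat_not_mem {g : G} (h : g ∉ H) : extMat H X g = 0 := dif_neg h

theorem extMat_mul (a : G) {b : G} (hb : b ∈ H) :
    extMat H X (a * b) = extMat H X a * extMat H X b := by
  by_cases ha : a ∈ H
  · rw [extMat_mem H X ha, extMat_mem H X hb, extMat_mem H X (H.mul_mem ha hb), ← map_mul]
    rfl
  · have : a * b ∉ H := fun h => ha ((H.mul_mem_cancel_right hb).1 h)
    rw [extMat_not_mem H X ha, extMat_not_mem H X this, zero_mul]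

/-- the induced matrices. -/
noncomputable def indMat (g : G) : Matrix ((G ⧸ H) × n) ((G ⧸ H) × n) R :=
  fun p q => extMat H X ((Quotient.out p.1)⁻¹ * g * Quotient.out q.1) p.2 q.2

theorem out_inv_mul_mem_iff (s : G ⧸ H) (x : G) :
    (Quotient.out s)⁻¹ * x ∈ H ↔ s = (x : G ⧸ H) := by
  rw [← QuotientGroup.eq, QuotientGroup.out_eq']

variable [Fintype (G ⧸ H)] [DecidableEq (G ⧸ H)]

omit [Fintype (G ⧸ H)] in
theorem indMat_one : indMat H X 1 = 1 := by
  ext p q
  unfold indMat
  rw [mul_one]
  by_cases h : p.1 = q.1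
  · have e : (Quotient.out p.1)⁻¹ * Quotient.out q.1 = 1 := by rw [h, inv_mul_cancel]
    rw [e, extMat_mem H X H.one_mem]
    have : (⟨1, H.one_mem⟩ : H) = 1 := rfl
    rw [this, map_one, Matrix.one_apply, Matrix.one_apply]
    by_cases h2 : p.2 = q.2
    · rw [if_pos h2, if_pos (Prod.ext h h2)]
    · rw [if_neg h2, if_neg (fun hh => h2 (congrArg Prod.snd hh))]
  · have : (Quotient.out p.1)⁻¹ * Quotient.out q.1 ∉ H := by
      rw [out_inv_mul_mem_iff, QuotientGroup.out_eq']
      exact h
    rw [extMat_not_mem H X this, Matrix.one_apply, if_neg (fun hh => h (congrArg Prod.fst hh))]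
    rfl

omit [DecidableEq (G ⧸ H)] in
theorem indMat_mul (g g' : G) : indMat H X (g * g') = indMat H X g * indMat H X g' := by
  ext p q
  rw [Matrix.mul_apply, Fintype.sum_prod_type]
  unfold indMat
  simp only
  rw [Finset.sum_eq_single ((g' * Quotient.out q.1 : G) : G ⧸ H)]
  · rw [← Matrix.mul_apply, ← extMat_mul]
    · have e : (Quotient.out p.1)⁻¹ * (g * g') * Quotient.out q.1 =
          (Quotient.out p.1)⁻¹ * g * Quotient.out ((g' * Quotient.out q.1 : G) : G ⧸ H) *
          ((Quotient.out ((g' * Quotient.out q.1 : G) : G ⧸ H))⁻¹ * g' * Quotient.out q.1) := by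
        simp only [mul_assoc, mul_inv_cancel_left]
      rw [e]
    · rw [mul_assoc, out_inv_mul_mem_iff]
  · intro s _ hs
    have : (Quotient.out s)⁻¹ * g' * Quotient.out q.1 ∉ H := by
      rw [mul_assoc, out_inv_mul_mem_iff]
      exact hs
    rw [extMat_not_mem H X this]
    simp
  · intro h
    exact absurd (Finset.mem_univ _) h

omit [DecidableEq (G ⧸ H)] in
theorem trace_indMat (g : G) :
    (indMat H X g).trace = ∑ s : G ⧸ H, (extMat H X ((Quotient.out s)⁻¹ * g * Quotient.out s)).trace := by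
  unfold Matrix.trace
  rw [Fintype.sum_prod_type]
  rfl

end mat

theorem out_mul_bijective {G : Type*} [Group G] (H : Subgroup G) :
    Function.Bijective (fun p : (G ⧸ H) × H => Quotient.out p.1 * (p.2 : G)) := by
  constructor
  · rintro ⟨s, h⟩ ⟨s', h'⟩ e
    simp only at e
    have e1 : s = s' := by
      have h1 : (Quotient.out s)⁻¹ * (Quotient.out s' * (h' : G)) ∈ H := by
        rw [← e, inv_mul_cancel_left]; exact h.2
      rw [out_inv_mul_mem_iff] at h1
      rw [h1, QuotientGroup.mk_mul_of_mem _ h'.2, QuotientGroup.out_eq']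
    subst e1
    have := mul_left_cancel e
    rw [Subtype.ext this]
  · intro x
    refine ⟨((x : G ⧸ H), ⟨(Quotient.out (x : G ⧸ H))⁻¹ * x, ?_⟩), ?_⟩
    · rw [out_inv_mul_mem_iff]
    · simp

/-- a real representation induces to a real representation. -/
theorem exists_real_rep_ind {G : Type*} [Group G] [Fintype G] (H : Subgroup G) (n : ℕ)
    (ρ : Representation ℝ H (Fin n → ℝ)) :
    ∃ (m : ℕ) (σ : Representation ℝ G (Fin m → ℝ)), ∀ g : G,
      ((LinearMap.trace ℝ (Fin m → ℝ) (σ g) : ℝ) : ℂ) =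
        indFun H (fun h : H => ((LinearMap.trace ℝ (Fin n → ℝ) (ρ h) : ℝ) : ℂ)) g := by
  classical
  let X : H →* Matrix (Fin n) (Fin n) ℝ :=
    (LinearMap.toMatrixAlgEquiv' (R := ℝ) (n := Fin n)).toAlgHom.toRingHom.toMonoidHom.comp ρ
  have hX : ∀ h : H, X h = LinearMap.toMatrix' (ρ h) := fun h => rfl
  let e := Fintype.equivFin ((G ⧸ H) × Fin n)
  let Y : G →* Matrix (Fin (Fintype.card ((G ⧸ H) × Fin n))) (Fin (Fintype.card ((G ⧸ H) × Fin n))) ℝ :=
    { toFun := fun g => (indMat H X g).submatrix e.symm e.symm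
      map_one' := by rw [indMat_one, Matrix.submatrix_one_equiv]
      map_mul' := fun g g' => by rw [indMat_mul, Matrix.submatrix_mul_equiv] }
  let σ : Representation ℝ G (Fin (Fintype.card ((G ⧸ H) × Fin n)) → ℝ) :=
    (Matrix.toLinAlgEquiv' (R := ℝ)
      (n := Fin (Fintype.card ((G ⧸ H) × Fin n)))).toAlgHom.toRingHom.toMonoidHom.comp Y
  have hσ : ∀ g, σ g = Matrix.toLin' ((indMat H X g).submatrix e.symm e.symm) := fun g => rfl
  refine ⟨_, σ, fun g => ?_⟩
  have hcf : IsClassFunction H (fun h : H => ((LinearMap.trace ℝ (Fin n → ℝ) (ρ h) : ℝ) : ℂ)) := by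
    intro a b
    simp only [map_mul]
    rw [LinearMap.trace_mul_comm, ← mul_assoc, ← map_mul, inv_mul_cancel, map_one, one_mul]
  rw [Cfsg.Agent.Lib.Helper39.indFun_eq_sum_transversal H _ hcf (fun s : G ⧸ H => Quotient.out s)
    (out_mul_bijective H) g, hσ, Matrix.trace_toLin'_eq]
  have h1 : ((indMat H X g).submatrix e.symm e.symm).trace = (indMat H X g).trace := by
    unfold Matrix.trace
    exact Equiv.sum_comp e.symm (fun p => (indMat H X g) p p)
  rw [h1, trace_indMat]
  push_cast
  apply Finset.sum_congr rfl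
  intro s _
  by_cases hs : (Quotient.out s)⁻¹ * g * Quotient.out s ∈ H
  · rw [extMat_mem H X hs, extendByZero_mem H _ hs, hX, ← Matrix.trace_toLin'_eq,
      Matrix.toLin'_toMatrix']
  · rw [extMat_not_mem H X hs, extendByZero_not_mem H _ hs]
    simp

end Cfsg.Agent.Lib.Helper80
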