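import Mathlib
import Cfsg.Prelude.Def_Solvable

set_option autoImplicit false

/-!
Abstract criterion for `O_{p'}(C_A(x)) ≠ 1` for a group `A` of automorphisms of a centreless group `K`
containing the inner automorphisms.
-/

namespace Cfsg.Agent.Lib.Helper80.LocBal

variable {K : Type*} [Group K]

/-- the fixed points of an automorphism. -/
abbrev Fx (x : MulAut K) : Subgroup K := MonoidHom.eqLocus x.toMonoidHom (MonoidHom.id K)

lemma mem_Fx {x : MulAut K} {k : K} : k ∈ Fx x ↔ x k = k := Iff.rfl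

lemma aut_conj (a : MulAut K) (k : K) : a * MulAut.conj k * a⁻¹ = MulAut.conj (a k) := by
  ext j
  simp [MulAut.mul_apply, MulAut.conj_apply]

lemma conj_mem_cent (A : Subgroup (MulAut K)) (hinn : ∀ k : K, MulAut.conj k ∈ A) (x : MulAut K)
    {k : K} (hk : k ∈ Fx x) : MulAut.conj k ∈ A ⊓ Subgroup.centralizer {x} := by
  refine Subgroup.mem_inf.2 ⟨hinn k, ?_⟩
  rw [Subgroup.mem_centralizer_singleton_iff]
  have h := aut_conj x k
  rw [mem_Fx.1 hk] at h
  exact (mul_inv_eq_iff_eq_mul.1 h).symm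

/-- the inner automorphisms by fixed points, inside `C_A(x)`. -/
def jHom (A : Subgroup (MulAut K)) (hinn : ∀ k : K, MulAut.conj k ∈ A) (x : MulAut K) :
    ↥(Fx x) →* ↥(A ⊓ Subgroup.centralizer {x}) :=
  (MulAut.conj.comp (Fx x).subtype).codRestrict _ (fun k => conj_mem_cent A hinn x k.2)

lemma jHom_coe (A : Subgroup (MulAut K)) (hinn : ∀ k : K, MulAut.conj k ∈ A) (x : MulAut K)
    (k : ↥(Fx x)) : ((jHom A hinn x k : ↥(A ⊓ Subgroup.centralizer {x})) : MulAut K)
      = MulAut.conj (k : K) := rfl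

lemma jHom_injective (hZ : Function.Injective (MulAut.conj : K →* MulAut K))
    (A : Subgroup (MulAut K)) (hinn : ∀ k : K, MulAut.conj k ∈ A) (x : MulAut K) :
    Function.Injective (jHom A hinn x) := by
  intro a b h
  apply Subtype.ext
  apply hZ
  exact congrArg Subtype.val h

lemma commute_of_mem {A : Subgroup (MulAut K)} {x : MulAut K}
    (c : ↥(A ⊓ Subgroup.centralizer {x})) : (c : MulAut K) * x = x * (c : MulAut K) := by
  have := (Subgroup.mem_inf.1 c.2).2
  rw [Subgroup.mem_centralizer_singleton_iff] at this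
  exact this

lemma map_Fx_of_commute {x a : MulAut K} (h : a * x = x * a) {k : K} (hk : k ∈ Fx x) :
    a k ∈ Fx x := by
  rw [mem_Fx]
  have := congrArg (fun f : MulAut K => f k) h
  simp only [MulAut.mul_apply] at this
  rw [← this, mem_Fx.1 hk]

lemma jHom_range_normal (A : Subgroup (MulAut K)) (hinn : ∀ k : K, MulAut.conj k ∈ A)
    (x : MulAut K) : (jHom A hinn x).range.Normal := by
  constructor
  rintro _ ⟨k, rfl⟩ c
  refine ⟨⟨(c : MulAut K) k, map_Fx_of_commute (commute_of_mem c) k.2⟩, ?_⟩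
  apply Subtype.ext
  show MulAut.conj ((c : MulAut K) k) = (c : MulAut K) * MulAut.conj (k : K) * (c : MulAut K)⁻¹
  rw [aut_conj]

lemma map_comm_Fx {x a : MulAut K} (h : a * x = x * a) {k : K} (hk : k ∈ ⁅Fx x, Fx x⁆) :
    a k ∈ ⁅Fx x, Fx x⁆ := by
  have h1 : (Fx x).map a.toMonoidHom ≤ Fx x := by
    rintro _ ⟨j, hj, rfl⟩
    exact map_Fx_of_commute h hj
  have h2 : a k ∈ (⁅Fx x, Fx x⁆).map a.toMonoidHom := ⟨k, hk, rfl⟩
  rw [Subgroup.map_commutator] at h2
  exact Subgroup.commutator_mono h1 h1 h2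

theorem locbal [Finite K] (hZ : Function.Injective (MulAut.conj : K →* MulAut K))
    (A : Subgroup (MulAut K)) (hinn : ∀ k : K, MulAut.conj k ∈ A) {p : ℕ} [hp : Fact p.Prime]
    (x : MulAut K) (hxp : x ^ p = 1) (E : Subgroup K) (hEfix : E ≤ Fx x)
    (hEs : IsSimpleGroup ↥E) (hEperf : E ≤ ⁅E, E⁆) (hFE : ⁅Fx x, Fx x⁆ ≤ E)
    (hEp : p ∣ Nat.card ↥(Fx x) → p ∣ Nat.card ↥E)
    (hEc : ∀ a : MulAut K, (∀ e ∈ E, a e = e) → a ∈ Subgroup.zpowers x) :
    Cfsg.pPrimeCore p ↥(A ⊓ Subgroup.centralizer {x}) ≠ ⊥ ↔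
      Nat.Coprime p (Nat.card ↥(Fx x)) := by
  have hfinA : Finite (MulAut K) :=
    Finite.of_injective (fun e : MulAut K => (e : K → K)) DFunLike.coe_injective
  constructor
  · intro hne
    by_contra hcop
    apply hne
    have hdvd : p ∣ Nat.card ↥(Fx x) := by
      by_contra h
      exact hcop ((Nat.Prime.coprime_iff_not_dvd hp.out).2 h)
    have hpE := hEp hdvd
    unfold Cfsg.pPrimeCore
    rw [sSup_eq_bot]
    rintro N ⟨hN, hNc⟩
    let jE : ↥E →* ↥(A ⊓ Subgroup.centralizer {x}) := (jHom A hinn x).comp (Subgroup.inclusion hEfix)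
    have hjE : Function.Injective jE :=
      (jHom_injective hZ A hinn x).comp (Subgroup.inclusion_injective hEfix)
    have hM : (N.comap jE).Normal := hN.comap jE
    have hinv : ∀ a : MulAut K, a * x = x * a → ∀ e ∈ E, a e ∈ E := by
      intro a ha e he
      apply hFE
      apply map_comm_Fx ha
      exact Subgroup.commutator_mono hEfix hEfix (hEperf he)
    rcases hM.eq_bot_or_eq_top with hb | ht
    · rw [eq_bot_iff]
      intro n hn
      rw [Subgroup.mem_bot]
      have hfix : ∀ e ∈ E, (n : MulAut K) e = e := by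
        intro e he
        have he' := hinv _ (commute_of_mem n) e he
        have hmem : (⟨(n : MulAut K) e * e⁻¹, E.mul_mem he' (E.inv_mem he)⟩ : ↥E) ∈ N.comap jE := by
          rw [Subgroup.mem_comap]
          have e1 : jE ⟨(n : MulAut K) e * e⁻¹, E.mul_mem he' (E.inv_mem he)⟩
              = n * (jE ⟨e, he⟩ * n⁻¹ * (jE ⟨e, he⟩)⁻¹) := by
            apply Subtype.ext
            show MulAut.conj ((n : MulAut K) e * e⁻¹) = (n : MulAut K) *
              (MulAut.conj e * (n : MulAut K)⁻¹ * (MulAut.conj e)⁻¹)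
            rw [map_mul, ← aut_conj, map_inv]
            group
          rw [e1]
          exact N.mul_mem hn (hN.conj_mem _ (N.inv_mem hn) _)
        rw [hb, Subgroup.mem_bot] at hmem
        have := congrArg Subtype.val hmem
        simpa [mul_inv_eq_one] using this
      have hz := hEc _ hfix
      obtain ⟨k, hk⟩ := Subgroup.mem_zpowers_iff.1 hz
      have hnp : n ^ p = 1 := by
        apply Subtype.ext
        show (n : MulAut K) ^ p = 1
        rw [← hk, ← zpow_natCast, ← zpow_mul, mul_comm, zpow_mul, zpow_natCast, hxp, one_zpow]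
      have h1 : orderOf n ∣ p := orderOf_dvd_of_pow_eq_one hnp
      have h2 : orderOf n ∣ Nat.card ↥N := by
        have := orderOf_dvd_natCard (⟨n, hn⟩ : ↥N)
        rwa [Subgroup.orderOf_mk] at this
      have h3 : orderOf n ∣ 1 := by
        have := Nat.dvd_gcd h2 h1
        rwa [hNc] at this
      exact orderOf_eq_one_iff.1 (Nat.dvd_one.1 h3)
    · exfalso
      have hle : jE.range ≤ N := by
        rintro _ ⟨e, rfl⟩
        have : e ∈ N.comap jE := by rw [ht]; trivial
        exact this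
      have h1 : Nat.card ↥E ∣ Nat.card ↥N := by
        rw [Nat.card_congr (MonoidHom.ofInjective hjE).toEquiv]
        exact Subgroup.card_dvd_of_le hle
      have h2 : p ∣ Nat.card ↥N := hpE.trans h1
      have h3 : p ∣ 1 := by
        have := Nat.dvd_gcd h2 (dvd_refl p)
        rwa [hNc] at this
      exact hp.out.one_lt.ne' (Nat.dvd_one.1 h3)
  · intro hcop hbot
    have hle : (jHom A hinn x).range ≤ Cfsg.pPrimeCore p ↥(A ⊓ Subgroup.centralizer {x}) := by
      apply le_sSup
      refine ⟨jHom_range_normal A hinn x, ?_⟩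
      rw [← Nat.card_congr (MonoidHom.ofInjective (jHom_injective hZ A hinn x)).toEquiv]
      exact hcop.symm
    rw [hbot, le_bot_iff, MonoidHom.range_eq_bot_iff] at hle
    have hnt : Nontrivial ↥E := hEs.toNontrivial
    obtain ⟨e, he⟩ := exists_ne (1 : ↥E)
    apply he
    apply Subgroup.inclusion_injective hEfix
    apply jHom_injective hZ A hinn x
    rw [hle]
    simp

/-- the conjugated version. -/
theorem locbal_conj [Finite K] (hZ : Function.Injective (MulAut.conj : K →* MulAut K))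
    (A : Subgroup (MulAut K)) (hinn : ∀ k : K, MulAut.conj k ∈ A) {p : ℕ} [hp : Fact p.Prime]
    (x φ α : MulAut K) (hx : x = α * φ * α⁻¹) (hxp : φ ^ p = 1) (E : Subgroup K) (hEfix : E ≤ Fx φ)
    (hEs : IsSimpleGroup ↥E) (hEperf : E ≤ ⁅E, E⁆) (hFE : ⁅Fx φ, Fx φ⁆ ≤ E)
    (hEp : p ∣ Nat.card ↥(Fx φ) → p ∣ Nat.card ↥E)
    (hEc : ∀ a : MulAut K, (∀ e ∈ E, a e = e) → a ∈ Subgroup.zpowers φ) :
    Cfsg.pPrimeCore p ↥(A ⊓ Subgroup.centralizer {x}) ≠ ⊥ ↔
      Nat.Coprime p (Nat.card ↥(Fx x)) := by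
  have hFx : Fx x = (Fx φ).map α.toMonoidHom := by
    ext k
    rw [mem_Fx, Subgroup.mem_map]
    constructor
    · intro h
      refine ⟨α⁻¹ k, ?_, by simp⟩
      rw [mem_Fx]
      rw [hx] at h
      simp only [MulAut.mul_apply] at h
      have := congrArg (fun z => α⁻¹ z) h
      simpa using this
    · rintro ⟨j, hj, rfl⟩
      rw [hx]
      simp only [MulAut.mul_apply]
      have : α⁻¹ (α.toMonoidHom j) = j := by simp
      rw [this, mem_Fx.1 hj]
      rfl
  have hcardF : Nat.card ↥(Fx x) = Nat.card ↥(Fx φ) := by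
    rw [hFx]
    exact (Nat.card_congr ((Fx φ).equivMapOfInjective α.toMonoidHom α.injective).toEquiv).symm
  have hcardE : Nat.card ↥(E.map α.toMonoidHom) = Nat.card ↥E :=
    (Nat.card_congr (E.equivMapOfInjective α.toMonoidHom α.injective).toEquiv).symm
  refine locbal hZ A hinn x ?_ (E.map α.toMonoidHom) ?_ ?_ ?_ ?_ ?_ ?_
  · rw [hx, conj_pow, hxp]; group
  · rw [hFx]; exact Subgroup.map_mono hEfix
  · exact (E.equivMapOfInjective α.toMonoidHom α.injective).symm.isSimpleGroup
  · rw [← Subgroup.map_commutator]; exact Subgroup.map_mono hEperf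
  · rw [hFx, ← Subgroup.map_commutator]; exact Subgroup.map_mono hFE
  · rw [hcardF, hcardE]; exact hEp
  · intro a ha
    have h1 : α⁻¹ * a * α ∈ Subgroup.zpowers φ := by
      apply hEc
      intro e he
      simp only [MulAut.mul_apply]
      rw [ha (α e) ⟨e, he, rfl⟩]
      simp
    obtain ⟨k, hk⟩ := Subgroup.mem_zpowers_iff.1 h1
    rw [Subgroup.mem_zpowers_iff]
    refine ⟨k, ?_⟩
    rw [hx, conj_zpow, hk]
    group

end Cfsg.Agent.Lib.Helper80.LocBal
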