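import Cfsg.Agent.Lib.Helper15.Gallagher
import Cfsg.Agent.Lib.Helper80.Linear
import Cfsg.Agent.Lib.Helper80.Constituent

/-!
Counting linear characters against characters induced from the stabilizer of an extendible character
of a perfect normal subgroup.
-/

set_option autoImplicit false

namespace Cfsg.Agent.Lib.Helper80

open Cfsg Cfsg.Agent.Lib.Helper15
open scoped ComplexConjugate

theorem count_bound {α β : Type*} [Finite α] [Finite β] (f : α → β) (n : ℕ)
    (h : ∀ a₀ : α, ∀ S : Finset α, (∀ a ∈ S, f a = f a₀) → S.card ≤ n) :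
    Nat.card α ≤ n * Nat.card β := by
  classical
  have := Fintype.ofFinite α
  have := Fintype.ofFinite β
  rw [Nat.card_eq_fintype_card, Nat.card_eq_fintype_card]
  calc Fintype.card α = (Finset.univ : Finset α).card := rfl
    _ ≤ n * ((Finset.univ : Finset α).image f).card := by
        apply Finset.card_le_mul_card_image
        intro b hb
        obtain ⟨a₀, -, rfl⟩ := Finset.mem_image.1 hb
        apply h a₀
        intro a ha
        exact (Finset.mem_filter.1 ha).2
    _ ≤ n * Fintype.card β := Nat.mul_le_mul_left _ (Finset.card_le_univ _)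

variable {G : Type*} [Group G] [Fintype G]

omit [Fintype G] in
theorem irr_restrict_linear {μ : G → ℂ} (hμ : IsIrrCharacter G μ) (hμ1 : μ 1 = 1) (I : Subgroup G) :
    IsIrrCharacter I (fun x : I => μ x) := by
  obtain ⟨f, hf⟩ := exists_hom_of_degree_one (irr_char hμ) hμ1
  have := Cfsg.Agent.Lib.Helper74.isIrrCharacter_of_hom (f.comp I.subtype)
  convert this using 2 with x
  exact hf x

/-- at most `|G : I|` irreducible characters restrict to a given linear character of `I`. -/
theorem card_le_index_of_restrict (I : Subgroup G) {μ : G → ℂ} (hμ : IsIrrCharacter G μ)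
    (hμ1 : μ 1 = 1) (S : Finset (IrrCharacter G))
    (hS : ∀ l ∈ S, ∀ x : I, (l : G → ℂ) x = μ x) : S.card ≤ I.index := by
  classical
  have := Fintype.ofFinite I
  have hμI := irr_restrict_linear hμ hμ1 I
  have hΦ : IsCharacter G (indFun I (fun x : I => μ x)) := char_indFun I (irr_char hμI)
  obtain ⟨m, hm, -, hdeg⟩ := exists_mult_spec hΦ
  have h1 : charDegree (indFun I (fun x : I => μ x)) = I.index := by
    have h2 := char_one_eq_charDegree hΦ
    rw [indFun_one] at h2
    have h3 : μ ((1 : I) : G) = 1 := hμ1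
    rw [h3, mul_one] at h2
    exact_mod_cast h2.symm
  rw [← h1, hdeg]
  calc S.card = ∑ l ∈ S, 1 := by simp
    _ ≤ ∑ l ∈ S, m l * charDegree (l : G → ℂ) := by
        apply Finset.sum_le_sum
        intro l hl
        have e1 : classInner (indFun I (fun x : I => μ x)) (l : G → ℂ) = 1 := by
          rw [classInner_indFun_left I _ _ (irr_cf l.2)]
          have : (fun h : I => (l : G → ℂ) h) = fun x : I => μ x := funext (hS l hl)
          rw [this]
          exact Cfsg.Agent.Lib.Helper3.classInner_irr_self hμI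
        have e2 : m l = 1 := by
          have := hm l
          rw [e1] at this
          exact_mod_cast this.symm
        rw [e2, one_mul]
        exact charDegree_pos_of_irr l.2
    _ ≤ ∑ l : IrrCharacter G, m l * charDegree (l : G → ℂ) :=
        Finset.sum_le_sum_of_subset (Finset.subset_univ S)

variable (N : Subgroup G) [hN : N.Normal]

section setup

variable {N} {φ : N → ℂ} (hφ : IsIrrCharacter N φ) {I : Subgroup G}
  (hI : ∀ g : G, g ∈ I ↔ cj N g φ = φ) (hNI : N ≤ I) {ψ : I → ℂ} (hψ : IsIrrCharacter I ψ)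
  (hext : resFun hNI ψ = φ)

include hφ hψ hext in
theorem irr_linear_mul {l : G → ℂ} (hl : IsIrrCharacter G l) (hl1 : l 1 = 1)
    (hlN : ∀ n ∈ N, l n = 1) :
    IsIrrCharacter I ((fun x : I => l x) * ψ) ∧ resFun hNI ((fun x : I => l x) * ψ) = φ := by
  have := Fintype.ofFinite I
  have := Fintype.ofFinite (N.subgroupOf I)
  have hn : (N.subgroupOf I).Normal := inferInstance
  have h1 : IsIrrCharacter (N.subgroupOf I) (fun n : N.subgroupOf I => ψ n) := by
    have := irr_downFun hNI (hext ▸ hφ : IsIrrCharacter N (resFun hNI ψ))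
    exact this
  have hg := gallagher (N.subgroupOf I) hψ h1
  have hmem : (fun x : I => l x) ∈ {β : I → ℂ | IsIrrCharacter I β ∧
      classInner (fun n : N.subgroupOf I => β n) (fun _ => 1) ≠ 0} := by
    refine ⟨irr_restrict_linear hl hl1 I, ?_⟩
    have : (fun n : N.subgroupOf I => l ((n : I) : G)) = fun _ => 1 := by
      funext n
      exact hlN _ (Subgroup.mem_subgroupOf.1 n.2)
    simp only [this]
    rw [Cfsg.Agent.Lib.Helper3.classInner_irr_self irr_one]
    exact one_ne_zero
  refine ⟨(hg.mapsTo hmem).1, ?_⟩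
  rw [← hext]
  funext n
  simp only [resFun_apply, Pi.mul_apply]
  rw [hlN _ n.2, one_mul]

include hφ hψ hext hI in
theorem irr_ind_linear_mul {l : G → ℂ} (hl : IsIrrCharacter G l) (hl1 : l 1 = 1)
    (hlN : ∀ n ∈ N, l n = 1) : IsIrrCharacter G (indFun I ((fun x : I => l x) * ψ)) := by
  have := Fintype.ofFinite I
  have := Fintype.ofFinite N
  obtain ⟨h1, h2⟩ := irr_linear_mul hφ hNI hψ hext hl hl1 hlN
  refine (clifford_correspondence N hφ I hI hNI).1 _ h1 ?_
  rw [h2, Cfsg.Agent.Lib.Helper3.classInner_irr_self hφ]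
  exact one_ne_zero

include hφ hψ hext hI in
theorem restrict_eq_of_ind_eq {l l' : G → ℂ} (hl : IsIrrCharacter G l) (hl1 : l 1 = 1)
    (hlN : ∀ n ∈ N, l n = 1) (hl' : IsIrrCharacter G l') (hl1' : l' 1 = 1)
    (hlN' : ∀ n ∈ N, l' n = 1)
    (h : indFun I ((fun x : I => l x) * ψ) = indFun I ((fun x : I => l' x) * ψ)) :
    ∀ x : I, l x = l' x := by
  have := Fintype.ofFinite I
  have := Fintype.ofFinite N
  have := Fintype.ofFinite (N.subgroupOf I)
  obtain ⟨h1, h2⟩ := irr_linear_mul hφ hNI hψ hext hl hl1 hlN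
  obtain ⟨h1', h2'⟩ := irr_linear_mul hφ hNI hψ hext hl' hl1' hlN'
  have hne : ∀ {a : N → ℂ}, a = φ → classInner a φ ≠ 0 := by
    intro a ha
    rw [ha, Cfsg.Agent.Lib.Helper3.classInner_irr_self hφ]
    exact one_ne_zero
  have e1 : (fun x : I => l x) * ψ = (fun x : I => l' x) * ψ := by
    by_contra hcon
    have := (clifford_correspondence N hφ I hI hNI).2.1 _ _ h1 h1' (hne h2) (hne h2') hcon
    rw [← h, Cfsg.Agent.Lib.Helper3.classInner_irr_self
      (irr_ind_linear_mul hφ hI hNI hψ hext hl hl1 hlN)] at this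
    exact one_ne_zero this
  have h3 : IsIrrCharacter (N.subgroupOf I) (fun n : N.subgroupOf I => ψ n) := by
    have := irr_downFun hNI (hext ▸ hφ : IsIrrCharacter N (resFun hNI ψ))
    exact this
  have hg := gallagher (N.subgroupOf I) hψ h3
  have hmem : ∀ {l : G → ℂ}, IsIrrCharacter G l → l 1 = 1 → (∀ n ∈ N, l n = 1) →
      (fun x : I => l x) ∈ {β : I → ℂ | IsIrrCharacter I β ∧
      classInner (fun n : N.subgroupOf I => β n) (fun _ => 1) ≠ 0} := by
    intro l hl hl1 hlN
    refine ⟨irr_restrict_linear hl hl1 I, ?_⟩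
    have : (fun n : N.subgroupOf I => l ((n : I) : G)) = fun _ => 1 := by
      funext n
      exact hlN _ (Subgroup.mem_subgroupOf.1 n.2)
    simp only [this]
    rw [Cfsg.Agent.Lib.Helper3.classInner_irr_self irr_one]
    exact one_ne_zero
  have := hg.injOn (hmem hl hl1 hlN) (hmem hl' hl1' hlN') e1
  exact fun x => congrFun this x

include hφ hψ hext in
theorem charDegree_ind_linear_mul {l : G → ℂ} (hl1 : l 1 = 1) :
    charDegree (indFun I ((fun x : I => l x) * ψ)) = charDegree φ * I.index := by
  have e : indFun I ((fun x : I => l x) * ψ) 1 = ((charDegree φ * I.index : ℕ) : ℂ) := by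
    rw [indFun_one, Pi.mul_apply]
    have h3 : l ((1 : I) : G) = 1 := hl1
    have h4 : ψ 1 = φ 1 := by rw [← hext]; rfl
    rw [h3, one_mul, h4, char_one_eq_charDegree (irr_char hφ)]
    push_cast; ring
  generalize charDegree φ * I.index = d at e
  unfold charDegree
  rw [e]
  simp

include hφ hψ hext hI in
/-- the counting inequality, with side conditions `P` on linear characters and `Q` on the characters
of degree `φ(1) |G : I|`. -/
theorem main_count (hperf : ∀ l : G → ℂ, IsIrrCharacter G l → l 1 = 1 → ∀ n ∈ N, l n = 1)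
    (P Q : IrrCharacter G → Prop)
    (hPQ : ∀ l : IrrCharacter G, charDegree (l : G → ℂ) = 1 → P l → ∀ χ : IrrCharacter G,
      (χ : G → ℂ) = indFun I ((fun x : I => (l : G → ℂ) x) * ψ) → Q χ) :
    Nat.card {χ : IrrCharacter G // charDegree (χ : G → ℂ) = 1 ∧ P χ} ≤
      I.index * Nat.card {χ : IrrCharacter G // charDegree (χ : G → ℂ) = charDegree φ * I.index ∧ Q χ} := by
  classical
  have h1 : ∀ l : {χ : IrrCharacter G // charDegree (χ : G → ℂ) = 1 ∧ P χ},
      ((l : IrrCharacter G) : G → ℂ) 1 = 1 := by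
    intro l
    rw [char_one_eq_charDegree (irr_char l.1.2), l.2.1, Nat.cast_one]
  let f : {χ : IrrCharacter G // charDegree (χ : G → ℂ) = 1 ∧ P χ} →
      {χ : IrrCharacter G // charDegree (χ : G → ℂ) = charDegree φ * I.index ∧ Q χ} := fun l =>
    ⟨⟨indFun I ((fun x : I => ((l : IrrCharacter G) : G → ℂ) x) * ψ),
      irr_ind_linear_mul hφ hI hNI hψ hext l.1.2 (h1 l) (hperf _ l.1.2 (h1 l))⟩,
      charDegree_ind_linear_mul hφ hNI hψ hext (h1 l), hPQ l.1 l.2.1 l.2.2 _ rfl⟩
  refine count_bound f I.index ?_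
  intro a₀ S hS
  have := card_le_index_of_restrict I a₀.1.2 (h1 a₀) (S.image Subtype.val) (by
    intro l hl x
    obtain ⟨a, ha, rfl⟩ := Finset.mem_image.1 hl
    have e := hS a ha
    have e' : indFun I ((fun x : I => ((a : IrrCharacter G) : G → ℂ) x) * ψ) =
        indFun I ((fun x : I => ((a₀ : IrrCharacter G) : G → ℂ) x) * ψ) :=
      congrArg (fun z => ((z.1 : IrrCharacter G) : G → ℂ)) e
    exact restrict_eq_of_ind_eq hφ hI hNI hψ hext a.1.2 (h1 a) (hperf _ a.1.2 (h1 a)) a₀.1.2 (h1 a₀)
      (hperf _ a₀.1.2 (h1 a₀)) e' x)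
  rwa [Finset.card_image_of_injective _ Subtype.val_injective] at this

end setup

omit [Fintype G] hN in
/-- linear characters are trivial on a non-abelian minimal normal subgroup. -/
theorem linear_trivial_on_minimal_normal (N : Subgroup G) (hN : N.Normal)
    (hmin : ∀ M : Subgroup G, M.Normal → M ≤ N → M = ⊥ ∨ M = N) (hna : ¬ IsMulCommutative ↥N)
    (l : G → ℂ) (hl : IsIrrCharacter G l) (hl1 : l 1 = 1) : ∀ n ∈ N, l n = 1 := by
  intro n hn
  have h1 : ⁅N, N⁆ = N := by
    rcases hmin ⁅N, N⁆ inferInstance (Subgroup.commutator_le_left N N) with h | h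
    · exfalso
      apply hna
      rw [Subgroup.commutator_eq_bot_iff_le_centralizer] at h
      refine ⟨⟨fun a b => ?_⟩⟩
      apply Subtype.ext
      exact (Subgroup.mem_centralizer_iff.1 (h b.2) a a.2)
    · exact h
  have h2 : n ∈ commutator G := by
    rw [commutator_def]
    exact Subgroup.commutator_mono le_top le_top (h1 ▸ hn)
  rw [char_eq_one_of_mem_commutator (irr_char hl) hl1 h2, hl1]

end Cfsg.Agent.Lib.Helper80
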