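import Cfsg.Agent.Lib.Helper43.PO.Odd

set_option autoImplicit false
set_option linter.unusedSectionVars false

/-!
The orthogonal group over a subfield inside the orthogonal group: embedding, Eichler elements,
rigidity.
-/

namespace Cfsg.Agent.Lib.Helper80.SubF

open Matrix QuadraticMap Cfsg.Agent.Lib.Helper13.OOut Cfsg.Agent.Lib.Helper43.PA
  Cfsg.Agent.Lib.Helper43.PO Cfsg.Agent.Lib.Helper44

universe u v

variable {F : Type u} [Field F] {ι : Type} [Fintype ι] [DecidableEq ι]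
variable {F₀ : Type v} [Field F₀] {i₀ : F₀ →+* F}
variable {Q : QuadraticForm F (ι → F)} {Q₀ : QuadraticForm F₀ (ι → F₀)}

lemma map_coe (g : GL ι F₀) : (Matrix.GeneralLinearGroup.map i₀ g).1 = g.1.map i₀ := rfl

lemma map_mem_iso (h : IsRat i₀ Q Q₀) (g : GL ι F₀) :
    Matrix.GeneralLinearGroup.map i₀ g ∈ Cfsg.isometryGroup F ⇑Q ↔
      g ∈ Cfsg.isometryGroup F₀ ⇑Q₀ := by
  rw [mem_isometryGroup, mem_isometryGroup]
  constructor
  · intro hg w
    apply i₀.injective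
    rw [← h, ← h, up_mulVec, ← map_coe, hg]
  · intro hg
    have e : Q.comp (Matrix.mulVecLin (Matrix.GeneralLinearGroup.map i₀ g).1) = Q := by
      apply quad_ext_rat i₀
      intro w
      show Q ((g.1.map i₀) *ᵥ up i₀ w) = Q (up i₀ w)
      rw [← up_mulVec, h, hg, h]
    intro v
    exact congrArg (fun q : QuadraticForm F (ι → F) => q v) e

lemma map_injective : Function.Injective (Matrix.GeneralLinearGroup.map (n := ι) i₀) := by
  intro a b hab
  apply Units.ext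
  have := congrArg Units.val hab
  rw [map_coe, map_coe] at this
  exact Matrix.map_injective i₀.injective this

/-- the embedding of the isometry group over the subfield. -/
def eps (h : IsRat i₀ Q Q₀) : ↥(Cfsg.isometryGroup F₀ ⇑Q₀) →* ↥(Cfsg.isometryGroup F ⇑Q) :=
  ((Matrix.GeneralLinearGroup.map i₀).comp (Cfsg.isometryGroup F₀ ⇑Q₀).subtype).codRestrict _
    (fun g => (map_mem_iso h g.1).2 g.2)

lemma eps_coe (h : IsRat i₀ Q Q₀) (g : ↥(Cfsg.isometryGroup F₀ ⇑Q₀)) :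
    (eps h g : GL ι F) = Matrix.GeneralLinearGroup.map i₀ (g : GL ι F₀) := rfl

lemma eps_injective (h : IsRat i₀ Q Q₀) : Function.Injective (eps h) := by
  intro a b hab
  apply Subtype.ext
  apply map_injective (i₀ := i₀)
  exact congrArg Subtype.val hab

lemma eps_mem_Omega (h : IsRat i₀ Q Q₀) (s : ↥(Cfsg.Omega F₀ ⇑Q₀)) :
    eps h (s : ↥(Cfsg.isometryGroup F₀ ⇑Q₀)) ∈ Cfsg.Omega F ⇑Q := by
  have h1 : (Cfsg.Omega F₀ ⇑Q₀).map (eps h) ≤ Cfsg.Omega F ⇑Q := by
    unfold Cfsg.Omega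
    rw [commutator_def, Subgroup.map_commutator, commutator_def]
    exact Subgroup.commutator_mono le_top le_top
  exact h1 ⟨s, s.2, rfl⟩

/-- the embedding of `Ω` over the subfield. -/
def epsO (h : IsRat i₀ Q Q₀) : ↥(Cfsg.Omega F₀ ⇑Q₀) →* ↥(Cfsg.Omega F ⇑Q) :=
  ((eps h).comp (Cfsg.Omega F₀ ⇑Q₀).subtype).codRestrict _ (fun s => eps_mem_Omega h s)

lemma epsO_coe (h : IsRat i₀ Q Q₀) (s : ↥(Cfsg.Omega F₀ ⇑Q₀)) :
    (epsO h s : ↥(Cfsg.isometryGroup F ⇑Q)) = eps h (s : ↥(Cfsg.isometryGroup F₀ ⇑Q₀)) := rfl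

lemma epsO_injective (h : IsRat i₀ Q Q₀) : Function.Injective (epsO h) := by
  intro a b hab
  apply Subtype.ext
  apply eps_injective h
  exact congrArg Subtype.val hab

/-- into `PΩ`. -/
def fE (h : IsRat i₀ Q Q₀) : ↥(Cfsg.Omega F₀ ⇑Q₀) →* Cfsg.POmega F ⇑Q :=
  (QuotientGroup.mk' _).comp (epsO h)

lemma fE_apply (h : IsRat i₀ Q Q₀) (s : ↥(Cfsg.Omega F₀ ⇑Q₀)) :
    fE h s = QuotientGroup.mk (epsO h s) := rfl

lemma mk_injective (hZ : Subgroup.center ↥(Cfsg.Omega F ⇑Q) = ⊥) :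
    Function.Injective (QuotientGroup.mk : ↥(Cfsg.Omega F ⇑Q) → Cfsg.POmega F ⇑Q) := by
  intro a b hab
  rw [QuotientGroup.eq, hZ, Subgroup.mem_bot, inv_mul_eq_one] at hab
  exact hab

lemma fE_injective (h : IsRat i₀ Q Q₀) (hZ : Subgroup.center ↥(Cfsg.Omega F ⇑Q) = ⊥) :
    Function.Injective (fE h) := (mk_injective hZ).comp (epsO_injective h)

lemma up_zero : up i₀ (0 : ι → F₀) = 0 := by funext i; simp [up]

lemma up_sub (w w' : ι → F₀) : up i₀ (w - w') = up i₀ w - up i₀ w' := by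
  funext i; simp [up]

lemma up_ne_zero {w : ι → F₀} (hw : w ≠ 0) : up i₀ w ≠ 0 := by
  intro h
  apply hw
  apply up_injective i₀
  rw [h, up_zero]

lemma rat_zero (h : IsRat i₀ Q Q₀) {u : ι → F₀} (hu : Q₀ u = 0) : Q (up i₀ u) = 0 := by
  rw [h, hu, map_zero]

lemma rat_polar_zero (h : IsRat i₀ Q Q₀) {u v : ι → F₀} (huv : polar Q₀ u v = 0) :
    polar Q (up i₀ u) (up i₀ v) = 0 := by
  rw [IsRat.polar h, huv, map_zero]

lemma matrix_ext_single {A B : Matrix ι ι F}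
    (h : ∀ j, A *ᵥ (Pi.single j 1) = B *ᵥ (Pi.single j 1)) : A = B := by
  ext i j
  have := congrFun (h j) i
  simpa using this

lemma eps_eichler (h : IsRat i₀ Q Q₀) (u v : ι → F₀) (hu : Q₀ u = 0) (huv : polar Q₀ u v = 0) :
    eps h (eichlerElt Q₀ u v hu huv) =
      eichlerElt Q (up i₀ u) (up i₀ v) (rat_zero h hu) (rat_polar_zero h huv) := by
  apply isometryGroup_ext
  apply matrix_ext_single
  intro j
  rw [eichlerElt_mulVec, eps_coe, map_coe, ← up_single i₀, ← up_mulVec, eichlerElt_mulVec,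
    eichler_apply, eichler_apply, up_sub, up_sub, up_add, up_smul, up_smul, up_smul, map_mul,
    IsRat.polar h, IsRat.polar h, h]

end Cfsg.Agent.Lib.Helper80.SubF
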