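import Cfsg.Agent.Lib.Helper80.SubF1

set_option autoImplicit false
set_option linter.unusedSectionVars false

/-!
Rigidity for the subfield subgroup: a semisimilarity centralising `Ω` over the subfield fixes the rational
singular points and its field automorphism fixes the subfield.
-/

namespace Cfsg.Agent.Lib.Helper80.SubF

open Matrix QuadraticMap Module Cfsg.Agent.Lib.Helper13.OOut Cfsg.Agent.Lib.Helper43.PA
  Cfsg.Agent.Lib.Helper43.PO Cfsg.Agent.Lib.Helper44

universe u v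

variable {F : Type u} [Field F] {ι : Type} [Fintype ι] [DecidableEq ι]
variable {F₀ : Type v} [Field F₀] {i₀ : F₀ →+* F}
variable {Q : QuadraticForm F (ι → F)} {Q₀ : QuadraticForm F₀ (ι → F₀)}

theorem span_rat [Fintype F₀] (h : IsRat i₀ Q Q₀) (hQ : (polarBilin Q).Nondegenerate)
    (hQ₀ : (polarBilin Q₀).Nondegenerate) (hn : 5 ≤ Fintype.card ι)
    {u : ι → F₀} (hu0 : u ≠ 0) (hu : Q₀ u = 0) (z : ι → F)
    (hz : ∀ v (huv : polar Q₀ u v = 0),
      eichler Q (up i₀ u) (up i₀ v) (rat_zero h hu) (rat_polar_zero h huv) z = z) :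
    ∃ c : F, z = c • up i₀ u := by
  obtain ⟨f, hf, huf⟩ := exists_hyp_partner hQ₀ hu0 hu
  have h3 := le_finrank_perp2 Q₀ u f
  have hfr : finrank F₀ (ι → F₀) = Fintype.card ι := by simp
  obtain ⟨w, hw, hw0, hwQ⟩ := exists_singular_of_finrank Q₀ (perp2 Q₀ u f) (by omega)
  rw [mem_perp2] at hw
  have key : ∀ v, polar Q₀ u v = 0 →
      (polar Q (up i₀ v) z - Q (up i₀ v) * polar Q (up i₀ u) z) • up i₀ u
        = polar Q (up i₀ u) z • up i₀ v := by
    intro v huv
    have h1 := hz v huv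
    rw [eichler_apply] at h1
    have h2 : (polar Q (up i₀ v) z - Q (up i₀ v) * polar Q (up i₀ u) z) • up i₀ u
        - polar Q (up i₀ u) z • up i₀ v = 0 := by
      have e : (polar Q (up i₀ v) z - Q (up i₀ v) * polar Q (up i₀ u) z) • up i₀ u
        - polar Q (up i₀ u) z • up i₀ v = (z + polar Q (up i₀ v) z • up i₀ u
          - polar Q (up i₀ u) z • up i₀ v - (Q (up i₀ v) * polar Q (up i₀ u) z) • up i₀ u) - z := by
        module
      rw [e, h1, sub_self]
    exact sub_eq_zero.1 h2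
  have hfu : polar Q (up i₀ f) (up i₀ u) = 1 := by
    rw [IsRat.polar h, polar_comm, huf, map_one]
  have hfw : polar Q (up i₀ f) (up i₀ w) = 0 := rat_polar_zero h hw.2
  have hB : polar Q (up i₀ u) z = 0 := by
    have h1 := key w hw.1
    have h2 := congrArg (fun y => polar Q (up i₀ f) y) h1
    simp only [polar_smul_right, hfu, hfw, smul_eq_mul, mul_one, mul_zero] at h2
    rw [h2, zero_smul] at h1
    exact (smul_eq_zero.1 h1.symm).resolve_right (up_ne_zero hw0)
  have hperp : ∀ v, polar Q₀ u v = 0 → polar Q (up i₀ v) z = 0 := by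
    intro v huv
    have h1 := key v huv
    rw [hB, mul_zero, sub_zero, zero_smul] at h1
    exact (smul_eq_zero.1 h1).resolve_right (up_ne_zero hu0)
  refine ⟨polar Q (up i₀ f) z, ?_⟩
  rw [← sub_eq_zero]
  apply hQ.1
  have hz' : polarBilin Q (z - polar Q (up i₀ f) z • up i₀ u) = 0 := by
    apply (Pi.basisFun F ι).ext
    intro j
    show polar Q (z - polar Q (up i₀ f) z • up i₀ u) (Pi.basisFun F ι j) = 0
    rw [Pi.basisFun_apply, ← up_single i₀]
    have h1 := hperp (Pi.single j 1 - polar Q₀ u (Pi.single j 1) • f) (by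
      rw [polar_sub_right, polar_smul_right, huf]; simp)
    rw [up_sub, up_smul, polar_sub_left, polar_smul_left, smul_eq_mul, sub_eq_zero] at h1
    rw [polar_sub_left, polar_smul_left, polar_comm Q z, h1, IsRat.polar h, smul_eq_mul]
    ring
  intro y
  rw [hz']
  rfl

/-- `y` centralises the subfield subgroup. -/
def Cen (h : IsRat i₀ Q Q₀) (y : ↥(Gam ⇑Q)) : Prop :=
  ∀ s : ↥(Cfsg.Omega F₀ ⇑Q₀), Th ⇑Q y (fE h s) = fE h s

lemma cAut_of_cen (h : IsRat i₀ Q Q₀) (hZ : Subgroup.center ↥(Cfsg.Omega F ⇑Q) = ⊥)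
    (y : ↥(Gam ⇑Q)) (hy : Cen h y) (s : ↥(Cfsg.Omega F₀ ⇑Q₀)) :
    cAut (y : SG F ι) ((epsO h s : ↥(Cfsg.isometryGroup F ⇑Q)) : GL ι F)
      = ((epsO h s : ↥(Cfsg.isometryGroup F ⇑Q)) : GL ι F) := by
  obtain ⟨t', ht'⟩ := exists_cAut_Omega ⇑Q y (epsO h s)
  have h3 : (QuotientGroup.mk t' : Cfsg.POmega F ⇑Q) = QuotientGroup.mk (epsO h s) := by
    rw [← Th_apply_mk _ y (epsO h s) t' ht']
    exact hy s
  rw [← ht', mk_injective hZ h3]

section

variable [Fintype F₀] (h : IsRat i₀ Q Q₀) (hZ : Subgroup.center ↥(Cfsg.Omega F ⇑Q) = ⊥)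
  (hQ : (polarBilin Q).Nondegenerate) (hQ₀ : (polarBilin Q₀).Nondegenerate)
  (hn : 5 ≤ Fintype.card ι) (y : ↥(Gam ⇑Q)) (hy : Cen h y)

include hZ hQ₀ hn hy

lemma act_eichler_rat (u v : ι → F₀) (hu : Q₀ u = 0) (huv : polar Q₀ u v = 0) (z : ι → F) :
    act (y : SG F ι) (eichler Q (up i₀ u) (up i₀ v) (rat_zero h hu) (rat_polar_zero h huv) z)
      = eichler Q (up i₀ u) (up i₀ v) (rat_zero h hu) (rat_polar_zero h huv)
        (act (y : SG F ι) z) := by
  have h1 := cAut_of_cen h hZ y hy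
    ⟨eichlerElt Q₀ u v hu huv, eichlerElt_mem_Omega Q₀ hQ₀ hn u v hu huv⟩
  rw [epsO_coe] at h1
  simp only at h1
  rw [eps_eichler] at h1
  rw [← eichlerElt_mulVec, ← eichlerElt_mulVec, ← cAut_mulVec_act, h1]

include hQ

lemma act_singular_rat {u : ι → F₀} (hu0 : u ≠ 0) (hu : Q₀ u = 0) :
    ∃ c : F, act (y : SG F ι) (up i₀ u) = c • up i₀ u := by
  apply span_rat h hQ hQ₀ hn hu0 hu
  intro v huv
  rw [← act_eichler_rat h hZ hQ₀ hn y hy u v hu huv]
  congr 1
  rw [eichler_apply, polar_self, rat_zero h hu, polar_comm Q (up i₀ v), rat_polar_zero h huv]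
  simp

lemma act_zero' (x : SG F ι) : act x (0 : ι → F) = 0 := by
  have := act_smul x 0 (0 : ι → F)
  simpa using this

theorem right_fix (t : F₀) : (y : SG F ι).right (i₀ t) = i₀ t := by
  have hfr : finrank F₀ (ι → F₀) = Fintype.card ι := by simp
  obtain ⟨e, -, he0, he⟩ := exists_singular_of_finrank Q₀ ⊤ (by rw [finrank_top]; omega)
  obtain ⟨f, hf, hef⟩ := exists_hyp_partner hQ₀ he0 he
  have h3 := le_finrank_perp2 Q₀ e f
  obtain ⟨w, hw, hw0, hwQ⟩ := exists_singular_of_finrank Q₀ (perp2 Q₀ e f) (by omega)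
  rw [mem_perp2] at hw
  have hind : ∀ a b : F, a • up i₀ e + b • up i₀ w = 0 → a = 0 ∧ b = 0 := by
    intro a b hab
    have h4 : polar Q (up i₀ f) (a • up i₀ e + b • up i₀ w) = a := by
      rw [polar_add_right, polar_smul_right, polar_smul_right, rat_polar_zero h hw.2,
        IsRat.polar h, polar_comm Q₀ f e, hef]
      simp
    rw [hab] at h4
    have ha : a = 0 := by rw [← h4]; simp
    subst ha
    rw [zero_smul, zero_add] at hab
    exact ⟨rfl, (smul_eq_zero.1 hab).resolve_right (up_ne_zero hw0)⟩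
  obtain ⟨c, hc⟩ := act_singular_rat h hZ hQ hQ₀ hn y hy he0 he
  obtain ⟨d, hd⟩ := act_singular_rat h hZ hQ hQ₀ hn y hy hw0 hwQ
  have key : ∀ t : F₀, (y : SG F ι).right (i₀ t) * d = c * i₀ t := by
    intro t
    have hs : Q₀ (e + t • w) = 0 := by
      rw [Q_add_smul, he, hwQ, hw.1]; ring
    have hs0 : e + t • w ≠ 0 := by
      intro h'
      have h5 := congrArg (up i₀) h'
      rw [up_add, up_smul, up_zero] at h5
      have := (hind 1 (i₀ t) (by rw [one_smul]; exact h5)).1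
      exact one_ne_zero this
    obtain ⟨μ, hμ⟩ := act_singular_rat h hZ hQ hQ₀ hn y hy hs0 hs
    rw [up_add, up_smul, act_add, act_smul, hc, hd, smul_add, smul_smul, smul_smul] at hμ
    have h5 : (c - μ) • up i₀ e + ((y : SG F ι).right (i₀ t) * d - μ * i₀ t) • up i₀ w = 0 := by
      rw [sub_smul, sub_smul]
      have : c • up i₀ e - μ • up i₀ e + (((y : SG F ι).right (i₀ t) * d) • up i₀ w
            - (μ * i₀ t) • up i₀ w)
          = (c • up i₀ e + ((y : SG F ι).right (i₀ t) * d) • up i₀ w)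
            - (μ • up i₀ e + (μ * i₀ t) • up i₀ w) := by abel
      rw [this, hμ, sub_self]
    obtain ⟨h6, h7⟩ := hind _ _ h5
    rw [sub_eq_zero] at h6 h7
    rw [h7, h6]
  have hcd : d = c := by
    have := key 1
    simpa using this
  have hc0 : c ≠ 0 := by
    rintro rfl
    rw [zero_smul] at hc
    apply up_ne_zero (i₀ := i₀) he0
    have := act_inv_act (y : SG F ι) (up i₀ e)
    rw [hc] at this
    rw [← this]
    have := act_smul (y : SG F ι)⁻¹ 0 (0 : ι → F)
    simpa using this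
  have := key t
  rw [hcd, mul_comm] at this
  exact mul_left_cancel₀ hc0 this

lemma act_up (w : ι → F₀) : act (y : SG F ι) (up i₀ w) = (y : SG F ι).left.1 *ᵥ up i₀ w := by
  rw [act_def]
  congr 1
  funext i
  exact right_fix h hZ hQ hQ₀ hn y hy (w i)

end

end Cfsg.Agent.Lib.Helper80.SubF
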