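import Cfsg.Agent.Lib.Helper80.SubF3
import Cfsg.Agent.Lib.Helper80.LocBal
import Cfsg.Agent.Lib.Helper5.OmegaSimple
import Cfsg.Agent.S0292

set_option autoImplicit false
set_option linter.unusedSectionVars false

/-!
Odd-dimensional orthogonal groups: the data for the local balance criterion at a standard field automorphism.
-/

namespace Cfsg.Agent.Lib.Helper80.SubF

open Matrix QuadraticMap Module Cfsg.Agent.Lib.Helper13.OOut Cfsg.Agent.Lib.Helper43.PA
  Cfsg.Agent.Lib.Helper43.PO Cfsg.Agent.Lib.Helper44 Cfsg.Agent.Lib.Helper80.LocBal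

open scoped commutatorElement

universe u v

/-- a simple group with trivial centre is perfect. -/
lemma commutator_eq_top_of_simple {G : Type*} [Group G] [IsSimpleGroup G]
    (hZ : Subgroup.center G = ⊥) : commutator G = ⊤ := by
  rcases (inferInstance : (commutator G).Normal).eq_bot_or_eq_top with h | h
  · exfalso
    have h1 : Subgroup.center G = ⊤ := by
      rw [eq_top_iff]
      intro a _
      rw [Subgroup.mem_center_iff]
      intro b
      have : ⁅b, a⁆ ∈ commutator G := Subgroup.commutator_mem_commutator (Subgroup.mem_top b) (Subgroup.mem_top a)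
      rw [h, Subgroup.mem_bot, commutatorElement_eq_one_iff_mul_comm] at this
      exact this
    rw [hZ] at h1
    exact bot_ne_top h1
  · exact h

section center

variable {K : Type u} [Field K] [Fintype K] (m : ℕ)

lemma center_odd (h2 : (2 : K) ≠ 0) (hm : 3 ≤ m) :
    Subgroup.center ↥(Cfsg.Omega K ⇑(oddQF m K)) = ⊥ := by
  have hQ := oddQF_nondeg m K h2
  have hn : 5 ≤ Fintype.card (Unit ⊕ (Fin m ⊕ Fin m)) := by simp; omega
  have hZ := card_center_Omega_eq_one (oddQF m K) hQ hn (Or.inr (by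
        rintro ⟨g, hg, hg1⟩
        have hdet := Cfsg.Agent.Lib.Helper5.det_eq_one_of_mem_Omega _ g hg
        rw [hg1, Matrix.det_neg, Matrix.det_one, mul_one] at hdet
        have hc : Fintype.card (Unit ⊕ (Fin m ⊕ Fin m)) = 2 * m + 1 := by simp; ring
        rw [hc, pow_succ, pow_mul] at hdet
        simp at hdet
        apply h2
        linear_combination -hdet))
  exact (Subgroup.card_eq_one).1 hZ

/-- `Ω ≃ PΩ`. -/
noncomputable def omegaEquiv (h2 : (2 : K) ≠ 0) (hm : 3 ≤ m) :
    ↥(Cfsg.Omega K ⇑(oddQF m K)) ≃* Cfsg.POmega K ⇑(oddQF m K) :=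
  MulEquiv.ofBijective (QuotientGroup.mk' _)
    ⟨mk_injective (center_odd m h2 hm), QuotientGroup.mk'_surjective _⟩

lemma omega_simple (h2 : (2 : K) ≠ 0) (hm : 3 ≤ m) :
    IsSimpleGroup ↥(Cfsg.Omega K ⇑(oddQF m K)) := by
  have := Cfsg.Agent.Lib.Helper5.pOmega_isSimpleGroup (oddQF m K) (oddQF_nondeg m K h2)
    (by simp; omega)
  exact (omegaEquiv m h2 hm).isSimpleGroup

lemma odd_card_of_two_ne (h2 : (2 : K) ≠ 0) : Odd (Fintype.card K) := by
  by_contra h
  exact h2 (two_eq_zero_of_even_card (Nat.not_odd_iff_even.1 h))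

lemma two_dvd_card_omega (h2 : (2 : K) ≠ 0) (hm : 3 ≤ m) :
    2 ∣ Nat.card ↥(Cfsg.Omega K ⇑(oddQF m K)) := by
  rw [Nat.card_congr (omegaEquiv m h2 hm).toEquiv, oddQF_coe]
  have h1 := Cfsg.Agent.S0292.result (F := K) rfl (odd_card_of_two_ne h2) m hm
  obtain ⟨k, hk⟩ := odd_card_of_two_ne h2
  have h4 : 4 ∣ Fintype.card K ^ (2 * (0 + 1)) - 1 := by
    rw [hk]
    refine ⟨k * k + k, ?_⟩
    have : (2 * k + 1) ^ (2 * (0 + 1)) = 4 * (k * k + k) + 1 := by ring
    rw [this]; simp
  have h5 : Fintype.card K ^ (2 * (0 + 1)) - 1 ∣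
      ∏ i ∈ Finset.range m, (Fintype.card K ^ (2 * (i + 1)) - 1) :=
    Finset.dvd_prod_of_mem (fun i => Fintype.card K ^ (2 * (i + 1)) - 1)
      (Finset.mem_range.2 (by omega))
  have h6 : 4 ∣ 2 * Nat.card (Cfsg.POmega K (Cfsg.quadFormOdd m K)) := by
    rw [h1]
    exact Dvd.dvd.mul_left (h4.trans h5) _
  omega

end center

end Cfsg.Agent.Lib.Helper80.SubF
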