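import Cfsg.Agent.Lib.Helper80.SubF4

set_option autoImplicit false
set_option linter.unusedSectionVars false

/-!
Odd-dimensional orthogonal groups: local balance at field automorphisms.
-/

namespace Cfsg.Agent.Lib.Helper80.SubF

open Matrix QuadraticMap Module Cfsg.Agent.Lib.Helper13.OOut Cfsg.Agent.Lib.Helper43.PA
  Cfsg.Agent.Lib.Helper43.PO Cfsg.Agent.Lib.Helper44 Cfsg.Agent.Lib.Helper80.LocBal

open scoped commutatorElement

universe u v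

variable {F : Type u} [Field F] [Fintype F] {F₀ : Type v} [Field F₀] [Fintype F₀] {i₀ : F₀ →+* F}

omit [Fintype F] [Fintype F₀] in
lemma two_ne_sub (i₀ : F₀ →+* F) (h2 : (2 : F) ≠ 0) : (2 : F₀) ≠ 0 := fun h =>
  h2 (by rw [← map_ofNat i₀ 2, h, map_zero])

/-- the standard field automorphism. -/
noncomputable def phi (m : ℕ) (σ : F ≃+* F) : MulAut (Cfsg.POmega F ⇑(oddQF m F)) :=
  Th ⇑(oddQF m F) (fG _ σ (inv_odd m σ))

variable {m : ℕ} {σ : F ≃+* F} (hι : ∀ x, σ x = x ↔ ∃ y, i₀ y = x)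

include hι

lemma phi_fE (s : ↥(Cfsg.Omega F₀ ⇑(oddQF m F₀))) :
    phi m σ (fE (isRat_odd i₀ m) s) = fE (isRat_odd i₀ m) s := by
  rw [fE_apply]
  apply Th_apply_mk
  rw [cAut_apply, fG_val, pr_left, pr_right, epsO_coe, eps_coe,
    (exists_mapG_eq i₀ σ hι _).2 ⟨_, rfl⟩]
  simp

lemma exists_of_fixed (hZ : Subgroup.center ↥(Cfsg.Omega F ⇑(oddQF m F)) = ⊥)
    (k : Cfsg.POmega F ⇑(oddQF m F)) (hk : phi m σ k = k) :
    ∃ (t : ↥(Cfsg.isometryGroup F₀ ⇑(oddQF m F₀)))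
      (ht : eps (isRat_odd i₀ m) t ∈ Cfsg.Omega F ⇑(oddQF m F)),
      k = QuotientGroup.mk ⟨eps (isRat_odd i₀ m) t, ht⟩ := by
  induction k using QuotientGroup.induction_on with
  | H s =>
    obtain ⟨s', hs'⟩ := exists_cAut_Omega ⇑(oddQF m F) (fG _ σ (inv_odd m σ)) s
    rw [phi, Th_apply_mk _ _ s s' hs'] at hk
    have e := mk_injective hZ hk
    rw [e, cAut_apply, fG_val, pr_left, pr_right] at hs'
    have h1 : fieldGL σ ((s : ↥(Cfsg.isometryGroup F ⇑(oddQF m F))) : GL (Unit ⊕ (Fin m ⊕ Fin m)) F)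
        = ((s : ↥(Cfsg.isometryGroup F ⇑(oddQF m F))) : GL (Unit ⊕ (Fin m ⊕ Fin m)) F) := by simpa using hs'.symm
    obtain ⟨g₀, hg₀⟩ := (exists_mapG_eq i₀ σ hι _).1 h1
    have hg₀' : g₀ ∈ Cfsg.isometryGroup F₀ ⇑(oddQF m F₀) :=
      (map_mem_iso (isRat_odd i₀ m) g₀).1 (by rw [hg₀]; exact s.1.2)
    have e2 : eps (isRat_odd i₀ m) ⟨g₀, hg₀'⟩ = s.1 := Subtype.ext hg₀
    refine ⟨⟨g₀, hg₀'⟩, by rw [e2]; exact s.2, ?_⟩
    congr 1
    exact Subtype.ext e2.symm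

lemma comm_Fx_le (hZ : Subgroup.center ↥(Cfsg.Omega F ⇑(oddQF m F)) = ⊥) :
    ⁅Fx (phi m σ), Fx (phi m σ)⁆ ≤ (fE (isRat_odd i₀ m)).range := by
  rw [Subgroup.commutator_le]
  intro k₁ hk₁ k₂ hk₂
  obtain ⟨t₁, ht₁, rfl⟩ := exists_of_fixed hι hZ k₁ hk₁
  obtain ⟨t₂, ht₂, rfl⟩ := exists_of_fixed hι hZ k₂ hk₂
  refine ⟨⟨⁅t₁, t₂⁆, Subgroup.commutator_mem_commutator (Subgroup.mem_top _)
    (Subgroup.mem_top _)⟩, ?_⟩
  rw [fE_apply]
  have e : (⁅(QuotientGroup.mk ⟨eps (isRat_odd i₀ m) t₁, ht₁⟩ : Cfsg.POmega F ⇑(oddQF m F)),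
      (QuotientGroup.mk ⟨eps (isRat_odd i₀ m) t₂, ht₂⟩ : Cfsg.POmega F ⇑(oddQF m F))⁆)
      = QuotientGroup.mk ⁅(⟨eps (isRat_odd i₀ m) t₁, ht₁⟩ : ↥(Cfsg.Omega F ⇑(oddQF m F))),
        ⟨eps (isRat_odd i₀ m) t₂, ht₂⟩⁆ := rfl
  rw [e]
  congr 1
  apply Subtype.ext
  rw [epsO_coe]
  show eps (isRat_odd i₀ m) ⁅t₁, t₂⁆ = ⁅eps (isRat_odd i₀ m) t₁, eps (isRat_odd i₀ m) t₂⁆
  rw [map_commutatorElement]

lemma dvd_card_E (h2 : (2 : F) ≠ 0) (hm : 3 ≤ m) {p : ℕ} [hp : Fact p.Prime]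
    (hdvd : p ∣ Nat.card ↥(Fx (phi m σ))) : p ∣ Nat.card ↥(fE (isRat_odd i₀ m)).range := by
  have hZ := center_odd m h2 hm
  have h20 : (2 : F₀) ≠ 0 := two_ne_sub i₀ h2
  obtain ⟨k, hk⟩ := exists_prime_orderOf_dvd_card' p hdvd
  obtain ⟨t, ht, e⟩ := exists_of_fixed hι hZ (k : Cfsg.POmega F ⇑(oddQF m F)) k.2
  have h1 : orderOf t = p := by
    rw [← hk, ← Subgroup.orderOf_coe k, e]
    have e1 : orderOf (QuotientGroup.mk' (Subgroup.center ↥(Cfsg.Omega F ⇑(oddQF m F)))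
        ⟨eps (isRat_odd i₀ m) t, ht⟩)
        = orderOf (⟨eps (isRat_odd i₀ m) t, ht⟩ : ↥(Cfsg.Omega F ⇑(oddQF m F))) :=
      orderOf_injective (QuotientGroup.mk' _) (mk_injective hZ) _
    rw [Subgroup.orderOf_mk, orderOf_injective (eps (isRat_odd i₀ m)) (eps_injective _)] at e1
    exact e1.symm
  have h3 : p ∣ Nat.card ↥(Cfsg.isometryGroup F₀ ⇑(oddQF m F₀)) := h1 ▸ orderOf_dvd_natCard t
  rw [← Subgroup.card_mul_index (Cfsg.Omega F₀ ⇑(oddQF m F₀)),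
    index_Omega_odd h20 (oddQF m F₀) (oddQF_nondeg m F₀ h20) (by simp; omega)] at h3
  rw [← Nat.card_congr (MonoidHom.ofInjective (fE_injective (isRat_odd i₀ m) hZ)).toEquiv]
  rcases (Nat.Prime.dvd_mul hp.out).1 h3 with h4 | h4
  · exact h4
  · have h5 : p = 2 := by
      have h6 : p ∣ 2 ^ 2 := by norm_num; exact h4
      exact (Nat.prime_dvd_prime_iff_eq hp.out Nat.prime_two).1 (hp.out.dvd_of_dvd_pow h6)
    rw [h5]
    exact two_dvd_card_omega m h20 hm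

omit hι in
lemma simple_E (h2 : (2 : F) ≠ 0) (hm : 3 ≤ m) :
    IsSimpleGroup ↥(fE (isRat_odd i₀ m)).range := by
  have hZ := center_odd m h2 hm
  have h20 : (2 : F₀) ≠ 0 := two_ne_sub i₀ h2
  have := omega_simple m h20 hm
  exact (MonoidHom.ofInjective (fE_injective (isRat_odd i₀ m) hZ)).symm.isSimpleGroup

omit hι in
lemma perf_E (h2 : (2 : F) ≠ 0) (hm : 3 ≤ m) :
    (fE (isRat_odd i₀ m)).range ≤ ⁅(fE (isRat_odd i₀ m)).range, (fE (isRat_odd i₀ m)).range⁆ := by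
  have h20 : (2 : F₀) ≠ 0 := two_ne_sub i₀ h2
  have := omega_simple m h20 hm
  rw [MonoidHom.range_eq_map, ← Subgroup.map_commutator, ← commutator_def,
    commutator_eq_top_of_simple (center_odd m h20 hm)]

lemma cent_E (hodd : Odd (Fintype.card F)) (hm : 3 ≤ m) (a : MulAut (Cfsg.POmega F ⇑(oddQF m F)))
    (ha : ∀ e ∈ (fE (isRat_odd i₀ m)).range, a e = e) : a ∈ Subgroup.zpowers (phi m σ) := by
  have h2 : (2 : F) ≠ 0 := two_ne_zero_of_odd_card hodd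
  have h20 : (2 : F₀) ≠ 0 := two_ne_sub i₀ h2
  have hZ := center_odd m h2 hm
  have hQ := oddQF_nondeg m F h2
  have hQ₀ := oddQF_nondeg m F₀ h20
  have hn : 5 ≤ Fintype.card (Unit ⊕ (Fin m ⊕ Fin m)) := by simp; omega
  have htop := Cfsg.Agent.Lib.Helper45.OAut.gamma_top_odd hodd hm
  rw [← oddQF_coe] at htop
  obtain ⟨y, rfl⟩ := Th_surjective (oddQF m F) hQ hn htop a
  have hy : Cen (isRat_odd i₀ m) y := fun s => ha _ ⟨s, rfl⟩
  have hτ : (y : SG F (Unit ⊕ (Fin m ⊕ Fin m))).right ∈ Subgroup.zpowers σ := by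
    apply mem_zpowers_of_fix
    intro x hx
    obtain ⟨t, rfl⟩ := (hι x).1 hx
    exact right_fix (isRat_odd i₀ m) hZ hQ hQ₀ hn y hy t
  obtain ⟨c, hc⟩ := left_scalar_odd (i₀ := i₀) (by omega) (y : SG F (Unit ⊕ (Fin m ⊕ Fin m))).left.1 (by
    intro u hu0 hu
    rw [← act_up (isRat_odd i₀ m) hZ hQ hQ₀ hn y hy]
    exact act_singular_rat (isRat_odd i₀ m) hZ hQ hQ₀ hn y hy hu0 hu)
  obtain ⟨k, hk⟩ := Subgroup.mem_zpowers_iff.1 hτ
  rw [Subgroup.mem_zpowers_iff]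
  refine ⟨k, ?_⟩
  have e1 : fG ⇑(oddQF m F) σ (inv_odd m σ) = inrG ⇑(oddQF m F) (fun σ => inv_odd m σ) σ := rfl
  rw [phi, e1, ← map_zpow, ← map_zpow, hk]
  symm
  rw [← mul_inv_eq_one, ← map_inv, ← map_mul, Th_eq_one_iff (oddQF m F) hQ hn]
  have hne : Nonempty (Unit ⊕ (Fin m ⊕ Fin m)) := ⟨Sum.inl ()⟩
  have r1 : ((inrG ⇑(oddQF m F) (fun σ => inv_odd m σ) (y : SG F (Unit ⊕ (Fin m ⊕ Fin m))).right :
      ↥(Gam ⇑(oddQF m F))) : SG F (Unit ⊕ (Fin m ⊕ Fin m))).right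
        = (y : SG F (Unit ⊕ (Fin m ⊕ Fin m))).right := rfl
  have r2 : ((inrG ⇑(oddQF m F) (fun σ => inv_odd m σ) (y : SG F (Unit ⊕ (Fin m ⊕ Fin m))).right :
      ↥(Gam ⇑(oddQF m F))) : SG F (Unit ⊕ (Fin m ⊕ Fin m))).left = 1 := rfl
  constructor
  · simp only [Subgroup.coe_mul, InvMemClass.coe_inv, SemidirectProduct.mul_right,
      SemidirectProduct.inv_right, r1]
    exact mul_inv_cancel _
  · obtain ⟨u, hu⟩ := exists_scG_of_smul hc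
    refine ⟨u, ?_⟩
    rw [← hu]
    simp only [Subgroup.coe_mul, InvMemClass.coe_inv, SemidirectProduct.mul_left,
      SemidirectProduct.inv_left, r1, r2]
    simp

end Cfsg.Agent.Lib.Helper80.SubF
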